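import Mathlib

set_option autoImplicit false

namespace Cfsg.Agent.Lib.Helper19.TransvCent

open Matrix

/-- the embedding of `Fin 3` as the last three indices of `Fin 5` -/
def e3 : Fin 3 → Fin 5 := ![2, 3, 4]

theorem zmod2_eq_one (x : ZMod 2) (h : x ≠ 0) : x = 1 := by
  revert h; revert x; decide

/-- shape of a matrix commuting with the transvection -/
theorem shape (g : Matrix (Fin 5) (Fin 5) (ZMod 2))
    (h : g * Matrix.transvection 0 1 1 = Matrix.transvection 0 1 1 * g) :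
    (∀ i : Fin 5, i ≠ 0 → g i 0 = 0) ∧ (∀ j : Fin 5, j ≠ 1 → g 1 j = 0) ∧ g 0 0 = g 1 1 := by
  refine ⟨?_, ?_, ?_⟩
  · intro i hi
    have h1 := congrFun (congrFun h i) 1
    fin_cases i <;>
      simp [Matrix.mul_apply, Fin.sum_univ_five, Matrix.transvection, Matrix.single_apply,
        Matrix.one_apply] at h1 hi ⊢ <;> exact h1
  · intro j hj
    have h1 := congrFun (congrFun h 0) j
    fin_cases j <;>
      simp [Matrix.mul_apply, Fin.sum_univ_five, Matrix.transvection, Matrix.single_apply,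
        Matrix.one_apply] at h1 hj ⊢ <;> exact h1
  · have h1 := congrFun (congrFun h 0) 1
    simp [Matrix.mul_apply, Fin.sum_univ_five, Matrix.transvection, Matrix.single_apply,
      Matrix.one_apply] at h1
    rw [add_comm (g 0 1) (g 1 1)] at h1
    exact add_right_cancel h1

/-- the lower-right 3x3 block -/
def blk (g : Matrix (Fin 5) (Fin 5) (ZMod 2)) : Matrix (Fin 3) (Fin 3) (ZMod 2) :=
  g.submatrix e3 e3

theorem blk_mul (g h : Matrix (Fin 5) (Fin 5) (ZMod 2))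
    (hg : ∀ i : Fin 5, i ≠ 0 → g i 0 = 0) (hh : ∀ j : Fin 5, j ≠ 1 → h 1 j = 0) :
    blk (g * h) = blk g * blk h := by
  have g2 := hg 2 (by decide)
  have g3 := hg 3 (by decide)
  have g4 := hg 4 (by decide)
  have h2 := hh 2 (by decide)
  have h3 := hh 3 (by decide)
  have h4 := hh 4 (by decide)
  ext i j
  simp only [blk, Matrix.submatrix_apply, Matrix.mul_apply, Fin.sum_univ_five, Fin.sum_univ_three]
  fin_cases i <;> fin_cases j <;> simp [e3, g2, g3, g4, h2, h3, h4]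

theorem blk_one : blk (1 : Matrix (Fin 5) (Fin 5) (ZMod 2)) = 1 := by
  ext i j
  fin_cases i <;> fin_cases j <;> simp [blk, e3, Matrix.one_apply]

/-- membership in the centralizer of the transvection: shape of the matrix -/
theorem mem_shape (s : Matrix.SpecialLinearGroup (Fin 5) (ZMod 2))
    (hs : (s : Matrix (Fin 5) (Fin 5) (ZMod 2)) = Matrix.transvection 0 1 1)
    (g : Matrix.SpecialLinearGroup (Fin 5) (ZMod 2))
    (hg : g ∈ Subgroup.centralizer ({s} : Set (Matrix.SpecialLinearGroup (Fin 5) (ZMod 2)))) :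
    (∀ i : Fin 5, i ≠ 0 → (g : Matrix (Fin 5) (Fin 5) (ZMod 2)) i 0 = 0) ∧
      (∀ j : Fin 5, j ≠ 1 → (g : Matrix (Fin 5) (Fin 5) (ZMod 2)) 1 j = 0) ∧
      (g : Matrix (Fin 5) (Fin 5) (ZMod 2)) 0 0 = 1 ∧
      (g : Matrix (Fin 5) (Fin 5) (ZMod 2)) 1 1 = 1 := by
  have hc : g * s = s * g :=
    (Subgroup.mem_centralizer_iff.mp hg s (Set.mem_singleton s)).symm
  have hm : (g : Matrix (Fin 5) (Fin 5) (ZMod 2)) * Matrix.transvection 0 1 1
      = Matrix.transvection 0 1 1 * (g : Matrix (Fin 5) (Fin 5) (ZMod 2)) := by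
    rw [← hs, ← Matrix.SpecialLinearGroup.coe_mul, ← Matrix.SpecialLinearGroup.coe_mul, hc]
  obtain ⟨h1, h2, h3⟩ := shape _ hm
  have h00 : (g : Matrix (Fin 5) (Fin 5) (ZMod 2)) 0 0 = 1 := by
    apply zmod2_eq_one
    intro h0
    have hinv : ((g⁻¹ * g : Matrix.SpecialLinearGroup (Fin 5) (ZMod 2)) :
        Matrix (Fin 5) (Fin 5) (ZMod 2)) 0 0 = 1 := by
      rw [inv_mul_cancel]; simp
    rw [Matrix.SpecialLinearGroup.coe_mul, Matrix.mul_apply, Fin.sum_univ_five] at hinv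
    rw [h0, h1 1 (by decide), h1 2 (by decide), h1 3 (by decide), h1 4 (by decide)] at hinv
    simp at hinv
  exact ⟨h1, h2, h00, h3 ▸ h00⟩

theorem card_cent_transvection_le (s : Matrix.SpecialLinearGroup (Fin 5) (ZMod 2))
    (hs : (s : Matrix (Fin 5) (Fin 5) (ZMod 2)) = Matrix.transvection 0 1 1) :
    Nat.card (Subgroup.centralizer ({s} : Set (Matrix.SpecialLinearGroup (Fin 5) (ZMod 2))))
      ≤ 21504 := by
  have hsh := mem_shape s hs
  -- the block as a unit
  have hunit : ∀ g : ↥(Subgroup.centralizer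
      ({s} : Set (Matrix.SpecialLinearGroup (Fin 5) (ZMod 2)))),
      ∃ u : (Matrix (Fin 3) (Fin 3) (ZMod 2))ˣ,
        (u : Matrix (Fin 3) (Fin 3) (ZMod 2))
          = blk ((g : Matrix.SpecialLinearGroup (Fin 5) (ZMod 2)) :
              Matrix (Fin 5) (Fin 5) (ZMod 2)) := by
    intro g
    have hg := hsh g.1 g.2
    have hgi := hsh (g.1)⁻¹ (Subgroup.inv_mem _ g.2)
    refine ⟨⟨blk (g.1 : Matrix (Fin 5) (Fin 5) (ZMod 2)),
      blk (((g.1)⁻¹ : Matrix.SpecialLinearGroup (Fin 5) (ZMod 2)) :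
        Matrix (Fin 5) (Fin 5) (ZMod 2)), ?_, ?_⟩, rfl⟩
    · rw [← blk_mul _ _ hg.1 hgi.2.1, ← Matrix.SpecialLinearGroup.coe_mul, mul_inv_cancel]
      simpa using blk_one
    · rw [← blk_mul _ _ hgi.1 hg.2.1, ← Matrix.SpecialLinearGroup.coe_mul, inv_mul_cancel]
      simpa using blk_one
  choose u hu using hunit
  obtain ⟨Φ, hΦ⟩ : ∃ Φ : ↥(Subgroup.centralizer
      ({s} : Set (Matrix.SpecialLinearGroup (Fin 5) (ZMod 2)))) →
      (Fin 4 → ZMod 2) × (Fin 3 → ZMod 2) × (Matrix (Fin 3) (Fin 3) (ZMod 2))ˣ,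
      ∀ g, Φ g = (fun j => (g.1 : Matrix (Fin 5) (Fin 5) (ZMod 2)) 0 j.succ,
        fun i => (g.1 : Matrix (Fin 5) (Fin 5) (ZMod 2)) (e3 i) 1, u g) := ⟨_, fun g => rfl⟩
  have hinj : Function.Injective Φ := by
    intro g h hgh
    rw [hΦ, hΦ] at hgh
    have hg := hsh g.1 g.2
    have hh := hsh h.1 h.2
    obtain ⟨gm, hgm⟩ : ∃ gm : Matrix (Fin 5) (Fin 5) (ZMod 2),
        gm = (g.1 : Matrix (Fin 5) (Fin 5) (ZMod 2)) := ⟨_, rfl⟩
    obtain ⟨hm, hhm⟩ : ∃ hm : Matrix (Fin 5) (Fin 5) (ZMod 2),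
        hm = (h.1 : Matrix (Fin 5) (Fin 5) (ZMod 2)) := ⟨_, rfl⟩
    rw [← hgm] at hg
    rw [← hhm] at hh
    have h1 : (fun j : Fin 4 => gm 0 j.succ) = fun j : Fin 4 => hm 0 j.succ := by
      rw [hgm, hhm]; exact (Prod.mk.inj hgh).1
    have h2 : (fun i : Fin 3 => gm (e3 i) 1) = fun i : Fin 3 => hm (e3 i) 1 := by
      rw [hgm, hhm]; exact (Prod.mk.inj (Prod.mk.inj hgh).2).1
    have h3 : blk gm = blk hm := by
      rw [hgm, hhm, ← hu g, ← hu h, (Prod.mk.inj (Prod.mk.inj hgh).2).2]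
    have key : gm = hm := by
      have a1 : gm 0 1 = hm 0 1 := congrFun h1 0
      have a2 : gm 0 2 = hm 0 2 := congrFun h1 1
      have a3 : gm 0 3 = hm 0 3 := congrFun h1 2
      have a4 : gm 0 4 = hm 0 4 := congrFun h1 3
      have b2 : gm 2 1 = hm 2 1 := congrFun h2 0
      have b3 : gm 3 1 = hm 3 1 := congrFun h2 1
      have b4 : gm 4 1 = hm 4 1 := congrFun h2 2
      have c22 : gm 2 2 = hm 2 2 := congrFun (congrFun h3 0) 0
      have c23 : gm 2 3 = hm 2 3 := congrFun (congrFun h3 0) 1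
      have c24 : gm 2 4 = hm 2 4 := congrFun (congrFun h3 0) 2
      have c32 : gm 3 2 = hm 3 2 := congrFun (congrFun h3 1) 0
      have c33 : gm 3 3 = hm 3 3 := congrFun (congrFun h3 1) 1
      have c34 : gm 3 4 = hm 3 4 := congrFun (congrFun h3 1) 2
      have c42 : gm 4 2 = hm 4 2 := congrFun (congrFun h3 2) 0
      have c43 : gm 4 3 = hm 4 3 := congrFun (congrFun h3 2) 1
      have c44 : gm 4 4 = hm 4 4 := congrFun (congrFun h3 2) 2
      have e00 : gm 0 0 = hm 0 0 := by rw [hg.2.2.1, hh.2.2.1]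
      have e11 : gm 1 1 = hm 1 1 := by rw [hg.2.2.2, hh.2.2.2]
      have e10 : gm 1 0 = hm 1 0 := by rw [hg.1 1 (by decide), hh.1 1 (by decide)]
      have e20 : gm 2 0 = hm 2 0 := by rw [hg.1 2 (by decide), hh.1 2 (by decide)]
      have e30 : gm 3 0 = hm 3 0 := by rw [hg.1 3 (by decide), hh.1 3 (by decide)]
      have e40 : gm 4 0 = hm 4 0 := by rw [hg.1 4 (by decide), hh.1 4 (by decide)]
      have e12 : gm 1 2 = hm 1 2 := by rw [hg.2.1 2 (by decide), hh.2.1 2 (by decide)]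
      have e13 : gm 1 3 = hm 1 3 := by rw [hg.2.1 3 (by decide), hh.2.1 3 (by decide)]
      have e14 : gm 1 4 = hm 1 4 := by rw [hg.2.1 4 (by decide), hh.2.1 4 (by decide)]
      ext i j
      fin_cases i <;> fin_cases j <;>
        first
          | exact e00 | exact a1 | exact a2 | exact a3 | exact a4
          | exact e10 | exact e11 | exact e12 | exact e13 | exact e14
          | exact e20 | exact b2 | exact c22 | exact c23 | exact c24
          | exact e30 | exact b3 | exact c32 | exact c33 | exact c34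
          | exact e40 | exact b4 | exact c42 | exact c43 | exact c44
    apply Subtype.ext
    apply Subtype.ext
    rw [← hgm, ← hhm]
    exact key
  have hcard := Nat.card_le_card_of_injective Φ hinj
  have hGL : Nat.card (Matrix (Fin 3) (Fin 3) (ZMod 2))ˣ = 168 := by
    have h := Matrix.card_GL_field (𝔽 := ZMod 2) 3
    rw [h]
    simp [Fin.prod_univ_three, ZMod.card]
  have htot : Nat.card ((Fin 4 → ZMod 2) × (Fin 3 → ZMod 2) ×
      (Matrix (Fin 3) (Fin 3) (ZMod 2))ˣ) = 21504 := by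
    rw [Nat.card_prod, Nat.card_prod, hGL, Nat.card_eq_fintype_card, Nat.card_eq_fintype_card]
    simp [ZMod.card]
  rw [htot] at hcard
  exact hcard

end Cfsg.Agent.Lib.Helper19.TransvCent
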