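import Cfsg.Agent.Lib.Helper19.MaxAb

set_option autoImplicit false

namespace Cfsg.Agent.Lib.Helper19

open Subgroup Pointwise
open scoped commutatorElement

variable {G : Type*} [Group G]

theorem commutatorElement_central_mul_left {z d g : G} (h1 : Commute z d) (h2 : Commute z g) :
    ⁅z * d, g⁆ = ⁅d, g⁆ := by
  have h3 : Commute z ⁅d, g⁆ := by
    rw [commutatorElement_def]
    exact ((h1.mul_right h2).mul_right h1.inv_right).mul_right h2.inv_right
  have h4 : g * z⁻¹ * g⁻¹ = z⁻¹ := by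
    rw [(h2.symm.inv_right).eq, mul_inv_cancel_right]
  calc ⁅z * d, g⁆ = z * ⁅d, g⁆ * (g * z⁻¹ * g⁻¹) := by
        simp only [commutatorElement_def]; group
    _ = z * ⁅d, g⁆ * z⁻¹ := by rw [h4]
    _ = ⁅d, g⁆ := by rw [h3.eq, mul_inv_cancel_right]

theorem commutatorElement_central_mul_right {z d g : G} (h1 : Commute z d) (h2 : Commute z g) :
    ⁅d, z * g⁆ = ⁅d, g⁆ := by
  rw [← commutatorElement_inv, commutatorElement_central_mul_left h2 h1, commutatorElement_inv]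

/-- If `Q = D ⊔ Z` with `Z` central in `Q`, then `[Q, Q] = [D, D]`. -/
theorem commutator_eq_of_sup_central {Q D Z : Subgroup G} (h : D ⊔ Z = Q)
    (hZ : Z ≤ centralizer (Q : Set G)) : ⁅Q, Q⁆ = ⁅D, D⁆ := by
  have hDQ : D ≤ Q := h ▸ le_sup_left
  have hZQ : Z ≤ Q := h ▸ le_sup_right
  apply le_antisymm _ (commutator_mono hDQ hDQ)
  have hset : ((D ⊔ Z : Subgroup G) : Set G) = (Z : Set G) * (D : Set G) := by
    rw [sup_comm]
    apply coe_mul_of_left_le_normalizer_right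
    exact (hZ.trans (centralizer_le (by exact_mod_cast hDQ))).trans (centralizer_le_normalizer _)
  rw [commutator_le]
  intro g₁ hg₁ g₂ hg₂
  rw [← h] at hg₁ hg₂
  have hg₁' : g₁ ∈ ((D ⊔ Z : Subgroup G) : Set G) := hg₁
  have hg₂' : g₂ ∈ ((D ⊔ Z : Subgroup G) : Set G) := hg₂
  rw [hset] at hg₁' hg₂'
  obtain ⟨z₁, hz₁, d₁, hd₁, rfl⟩ := hg₁'
  obtain ⟨z₂, hz₂, d₂, hd₂, rfl⟩ := hg₂'
  have c1 : ∀ q ∈ Q, Commute z₁ q := fun q hq => (mem_centralizer_iff.mp (hZ hz₁) q hq).symm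
  have c2 : ∀ q ∈ Q, Commute z₂ q := fun q hq => (mem_centralizer_iff.mp (hZ hz₂) q hq).symm
  have e : ⁅z₁ * d₁, z₂ * d₂⁆ = ⁅d₁, d₂⁆ := by
    rw [commutatorElement_central_mul_left (c1 d₁ (hDQ hd₁))
      (c1 _ (mul_mem (hZQ hz₂) (hDQ hd₂))),
      commutatorElement_central_mul_right (c2 d₁ (hDQ hd₁)) (c2 d₂ (hDQ hd₂))]
  rw [e]
  exact commutator_mem_commutator hd₁ hd₂

theorem mcl_inf_sup_centralizer [Finite G] {Q R : Subgroup G}
    (hQ : Cfsg.IsMinimalCentrallyLarge Q) (hR : Cfsg.IsCentrallyLarge R) :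
    (Q ⊓ R) ⊔ centralizer (Q : Set G) = Q ∧
    Nat.card (Q ⊓ R : Subgroup G) * Nat.card (centralizer (Q : Set G)) =
      Nat.card Q * Nat.card ((Q ⊓ R) ⊓ centralizer (Q : Set G) : Subgroup G) := by
  obtain ⟨hQcl, hQmin⟩ := hQ
  obtain ⟨hQm, hQc⟩ := (isCentrallyLarge_iff Q).mp hQcl
  obtain ⟨hRm, hRc⟩ := (isCentrallyLarge_iff R).mp hR
  obtain ⟨-, hDm, -, hCD, -⟩ := hQm.sup_inf hRm
  have hZm := hQm.cent.1
  have hZcc := hQm.cent.2
  obtain ⟨hYm, -, hcard, -, -⟩ := hDm.sup_inf hZm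
  obtain ⟨-, -, hcard2, -, -⟩ := hQm.cent.1.sup_inf hRm.cent.1
  have hset := coe_sup_eq_mul_of_card _ _ hcard2
  have hYle : (Q ⊓ R) ⊔ centralizer (Q : Set G) ≤ Q := sup_le inf_le_left hQc
  have hYcl : Cfsg.IsCentrallyLarge ((Q ⊓ R) ⊔ centralizer (Q : Set G)) := by
    rw [isCentrallyLarge_iff]
    refine ⟨hYm, ?_⟩
    rw [centralizer_sup_eq, hZcc, ← hCD]
    intro x hx
    obtain ⟨hx1, hx2⟩ := hx
    have hx1' : x ∈ ((centralizer (Q : Set G) ⊔ centralizer (R : Set G) : Subgroup G) : Set G) :=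
      hx1
    rw [hset] at hx1'
    obtain ⟨z, hz, r, hr, rfl⟩ := hx1'
    have hrQ : r ∈ Q := by
      have := mul_mem (inv_mem (hQc hz)) hx2
      simpa using this
    exact mul_mem (mem_sup_right hz) (mem_sup_left ⟨hrQ, hRc hr⟩)
  have hYQ := hQmin _ hYle hYcl
  refine ⟨hYQ, ?_⟩
  rw [hcard, hYQ]

theorem mcl_inf_centralizer_eq [Finite G] {Q R : Subgroup G}
    (hQ : Cfsg.IsMinimalCentrallyLarge Q) (hR : Cfsg.IsCentrallyLarge R) :
    (Q ⊓ R) ⊓ centralizer (Q : Set G) = (Q ⊓ R) ⊓ centralizer ((Q ⊓ R : Subgroup G) : Set G) := by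
  obtain ⟨hYQ, -⟩ := mcl_inf_sup_centralizer hQ hR
  obtain ⟨hQm, hQc⟩ := (isCentrallyLarge_iff Q).mp hQ.1
  have hZcc := hQm.cent.2
  apply le_antisymm
  · exact inf_le_inf_left _ (centralizer_le (by exact_mod_cast (inf_le_left : Q ⊓ R ≤ Q)))
  · intro x hx
    refine ⟨hx.1, ?_⟩
    have : x ∈ centralizer (((Q ⊓ R) ⊔ centralizer (Q : Set G) : Subgroup G) : Set G) := by
      rw [centralizer_sup_eq, hZcc]
      exact ⟨hx.2, hx.1.1⟩
    rw [hYQ] at this
    exact this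

theorem mcl_pair [Finite G] {Q R : Subgroup G}
    (hQ : Cfsg.IsMinimalCentrallyLarge Q) (hR : Cfsg.IsMinimalCentrallyLarge R) :
    (Q ⊓ R) ⊔ (Q ⊓ centralizer (Q : Set G)) = Q ∧ ⁅Q, Q⁆ = ⁅R, R⁆ ∧ Nat.card Q = Nat.card R ∧
    Nat.card (Q ⊓ centralizer (Q : Set G) : Subgroup G) =
      Nat.card (R ⊓ centralizer (R : Set G) : Subgroup G) := by
  obtain ⟨hQm, hQc⟩ := (isCentrallyLarge_iff Q).mp hQ.1
  obtain ⟨hRm, hRc⟩ := (isCentrallyLarge_iff R).mp hR.1
  rw [inf_eq_right.mpr hQc, inf_eq_right.mpr hRc]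
  obtain ⟨h1, h2⟩ := mcl_inf_sup_centralizer hQ hR.1
  obtain ⟨h3, h4⟩ := mcl_inf_sup_centralizer hR hQ.1
  have h5 := mcl_inf_centralizer_eq hQ hR.1
  have h6 := mcl_inf_centralizer_eq hR hQ.1
  rw [h5] at h2
  rw [h6] at h4
  rw [inf_comm R Q] at h3 h4
  have h7 : cdm Q = cdm R := hQm.cdm_eq hRm
  unfold cdm at h7
  have hcard : Nat.card Q = Nat.card R := by
    set a := Nat.card Q
    set b := Nat.card R
    set c := Nat.card (centralizer (Q : Set G))
    set d := Nat.card (centralizer (R : Set G))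
    set e := Nat.card ((Q ⊓ R) ⊓ centralizer ((Q ⊓ R : Subgroup G) : Set G) : Subgroup G)
    set f := Nat.card (Q ⊓ R : Subgroup G)
    have he : 0 < e := Nat.card_pos
    have ha : 0 < a := Nat.card_pos
    have hb : 0 < b := Nat.card_pos
    have key : a * a * e = b * b * e := by
      calc a * a * e = a * (a * e) := by ring
        _ = a * (f * c) := by rw [h2]
        _ = f * (a * c) := by ring
        _ = f * (b * d) := by rw [h7]
        _ = b * (f * d) := by ring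
        _ = b * (b * e) := by rw [h4]
        _ = b * b * e := by ring
    have key2 : a * a = b * b := Nat.eq_of_mul_eq_mul_right he key
    exact (Nat.mul_self_inj.mp key2)
  refine ⟨h1, ?_, hcard, ?_⟩
  · rw [commutator_eq_of_sup_central h1 le_rfl, commutator_eq_of_sup_central h3 le_rfl]
  · rw [hcard] at h7
    exact Nat.eq_of_mul_eq_mul_left Nat.card_pos h7

theorem mcl_iff_maxAbelian_of_abelian [Finite G] {Q : Subgroup G}
    (hQ : Cfsg.IsMinimalCentrallyLarge Q) (hQab : IsMulCommutative ↥Q) (X : Subgroup G) :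
    Cfsg.IsMinimalCentrallyLarge X ↔ X ∈ Cfsg.maxAbelianSubgroups G := by
  obtain ⟨hQm, hQc⟩ := (isCentrallyLarge_iff Q).mp hQ.1
  have hQle : Q ≤ centralizer (Q : Set G) := le_centralizer_of_isMulCommutative hQab
  have hCQ : centralizer (Q : Set G) = Q := le_antisymm hQc hQle
  have hcdmQ : cdm Q = Nat.card Q * Nat.card Q := by unfold cdm; rw [hCQ]
  -- every abelian subgroup has order at most `|Q|`
  have hab : ∀ B : Subgroup G, IsMulCommutative B → Nat.card B ≤ Nat.card Q := by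
    intro B hB
    have h1 : Nat.card B * Nat.card B ≤ cdm B :=
      Nat.mul_le_mul_left _ (card_le_of_le (le_centralizer_of_isMulCommutative hB))
    have h2 := h1.trans (hQm B)
    rw [hcdmQ] at h2
    exact Nat.mul_self_le_mul_self_iff.mp h2
  constructor
  · intro hX
    obtain ⟨-, h2, h3, -⟩ := mcl_pair hQ hX
    have hXab : IsMulCommutative ↥X := by
      apply isMulCommutative_of_le_centralizer
      rw [← commutator_eq_bot_iff_le_centralizer, ← h2, commutator_eq_bot_iff_le_centralizer]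
      exact hQle
    exact ⟨hXab, fun B hB => h3 ▸ hab B hB⟩
  · intro hX
    have hCX := maxAbelian_centralizer_eq hX
    obtain ⟨hXab, hXmax⟩ := hX
    have hXQ : Nat.card X = Nat.card Q := le_antisymm (hab X hXab) (hXmax Q hQab)
    have hcdmX : cdm X = cdm Q := by
      rw [hcdmQ]; unfold cdm; rw [hCX, hXQ]
    have hXm : IsCDMax X := isCDMax_of_cdm_eq hQm hcdmX
    refine ⟨(isCentrallyLarge_iff X).mpr ⟨hXm, hCX.le⟩, ?_⟩
    intro X' hle hX'
    obtain ⟨hX'm, hX'c⟩ := (isCentrallyLarge_iff X').mp hX'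
    have hX'ab : X' ≤ centralizer (X' : Set G) :=
      hle.trans ((le_centralizer_of_isMulCommutative hXab).trans
        (centralizer_le (by exact_mod_cast hle)))
    have hCX' : centralizer (X' : Set G) = X' := le_antisymm hX'c hX'ab
    have h1 : cdm X' = cdm X := hX'm.cdm_eq hXm
    unfold cdm at h1
    rw [hCX', hCX] at h1
    have h2 : Nat.card X' = Nat.card X := Nat.mul_self_inj.mp h1
    exact eq_of_le_of_card_ge hle h2.ge

end Cfsg.Agent.Lib.Helper19
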