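import Mathlib
import Cfsg.Prelude.Def_PLocal
import Cfsg.Agent.S0636
import Cfsg.Agent.Lib.Helper19.PGroupFixed
import Cfsg.Agent.Lib.Helper19.OmegaQuot

set_option autoImplicit false

universe u

namespace Cfsg.Agent.Lib.Helper19.OQ

open Subgroup Pointwise

theorem p_dvd_card_of_ne_bot {G : Type*} [Group G] [Finite G] {p : ℕ} [Fact p.Prime]
    {K : Subgroup G} (hK : IsPGroup p K) (hne : K ≠ ⊥) : p ∣ Nat.card K := by
  obtain ⟨k, hk⟩ := IsPGroup.iff_card.mp hK
  have hk0 : k ≠ 0 := by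
    rintro rfl
    rw [pow_zero] at hk
    exact hne (Subgroup.card_eq_one.mp hk)
  rw [hk]; exact dvd_pow_self p hk0

theorem card_omega_congr {A B : Type*} [Group A] [Group B] (p : ℕ) (e : A ≃* B) :
    Nat.card (Cfsg.omegaOne p (⊤ : Subgroup A)) = Nat.card (Cfsg.omegaOne p (⊤ : Subgroup B)) := by
  have h : (Cfsg.omegaOne p (⊤ : Subgroup A)).map e.toMonoidHom
      = Cfsg.omegaOne p (⊤ : Subgroup B) := by
    unfold Cfsg.omegaOne
    rw [MonoidHom.map_closure]
    congr 1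
    ext y
    constructor
    · rintro ⟨x, ⟨-, hx⟩, rfl⟩
      refine ⟨Subgroup.mem_top _, ?_⟩
      show (e x) ^ p = 1
      rw [← map_pow, hx, map_one]
    · rintro ⟨-, hy⟩
      refine ⟨e.symm y, ⟨Subgroup.mem_top _, ?_⟩, e.apply_symm_apply y⟩
      rw [← map_pow, hy, map_one]
  rw [← h]
  exact (Subgroup.card_map_of_injective e.injective).symm

theorem base {R : Type u} [Group R] [Finite R] {p : ℕ} [Fact p.Prime] (hp : 3 < p)
    (hR : IsPGroup p R) (N : Subgroup R) [N.Normal] (hN : N ≤ Subgroup.center R)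
    (hNc : Nat.card N = p)
    (hO : Nat.card (Cfsg.omegaOne p (⊤ : Subgroup R)) ≤ p ^ 2) :
    Nat.card (Cfsg.omegaOne p (⊤ : Subgroup (R ⧸ N))) ≤ p ^ 2 := by
  have hpp : p.Prime := Fact.out
  have hp2 : p ≠ 2 := by omega
  by_contra hlt
  push Not at hlt
  have hGb : IsPGroup p (R ⧸ N) := hR.to_quotient N
  have hnc : ¬ IsCyclic ↥(⊤ : Subgroup (R ⧸ N)) := by
    intro hcyc
    have hcyc' : IsCyclic (R ⧸ N) :=
      isCyclic_of_surjective (⊤ : Subgroup (R ⧸ N)).subtype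
        (fun x => ⟨⟨x, Subgroup.mem_top x⟩, rfl⟩)
    obtain ⟨g, hg⟩ := IsCyclic.exists_generator (α := R ⧸ N)
    have hcm : ∀ a b : R ⧸ N, Commute a b := by
      intro a b
      obtain ⟨i, rfl⟩ := Subgroup.mem_zpowers_iff.mp (hg a)
      obtain ⟨j, rfl⟩ := Subgroup.mem_zpowers_iff.mp (hg b)
      exact ((Commute.refl g).zpow_right j).zpow_left i
    have hexp : ∀ x ∈ Cfsg.omegaOne p (⊤ : Subgroup (R ⧸ N)), x ^ p = 1 := by
      intro x hx
      unfold Cfsg.omegaOne at hx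
      induction hx using Subgroup.closure_induction with
      | mem y hy => exact hy.2
      | one => exact one_pow p
      | mul a b _ _ ha hb => rw [(hcm a b).mul_pow, ha, hb, one_mul]
      | inv a _ ha => rw [inv_pow, ha, inv_one]
    obtain ⟨w, hw⟩ := IsCyclic.exists_generator
      (α := ↥(Cfsg.omegaOne p (⊤ : Subgroup (R ⧸ N))))
    have h1 : orderOf w = Nat.card ↥(Cfsg.omegaOne p (⊤ : Subgroup (R ⧸ N))) :=
      orderOf_eq_card_of_forall_mem_zpowers hw
    have h2 : w ^ p = 1 := Subtype.ext (hexp w w.2)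
    have h3 : orderOf w ∣ p := orderOf_dvd_of_pow_eq_one h2
    have h4 := Nat.le_of_dvd hpp.pos h3
    have h5 : p < p ^ 2 := by nlinarith [hpp.two_le]
    omega
  obtain ⟨A, -, hAn, hAe, hAc⟩ :=
    Cfsg.Agent.S0636.result hp2 hGb (⊤ : Subgroup (R ⧸ N)) hnc
  have hAnorm : (⊤ : Subgroup (R ⧸ N)) ≤ Subgroup.normalizer (A : Set (R ⧸ N)) := by
    rw [Subgroup.normalizer_eq_top]
  obtain ⟨zb, hzA, hz1, hzc⟩ :=
    Cfsg.Agent.Lib.Helper19.exists_ne_one_mem_centralizer_of_le_normalizer (p := p)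
      (P := ⊤) (K := A) (hGb.to_subgroup ⊤) hAnorm
      (by rw [hAc]; exact dvd_pow_self p (by norm_num))
  have hzcen : ∀ g : R ⧸ N, g * zb = zb * g := fun g =>
    (Subgroup.mem_centralizer_iff.mp hzc) g (Subgroup.mem_top g)
  have hzp : zb ^ p = 1 := hAe.2 zb hzA
  have hzord : orderOf zb = p := orderOf_eq_prime hzp hz1
  obtain ⟨yb, hyp, hyA⟩ : ∃ yb : R ⧸ N, yb ^ p = 1 ∧ yb ∉ A := by
    by_contra hno
    push Not at hno
    have hle : Cfsg.omegaOne p (⊤ : Subgroup (R ⧸ N)) ≤ A := by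
      unfold Cfsg.omegaOne
      rw [Subgroup.closure_le]
      intro x hx
      exact hno x hx.2
    have := Subgroup.card_le_of_le hle
    omega
  obtain ⟨Hb, hHb⟩ : ∃ Hb : Subgroup (R ⧸ N), Hb = Subgroup.zpowers yb ⊔ A := ⟨_, rfl⟩
  have hAH : A ≤ Hb := hHb ▸ le_sup_right
  have hyH : yb ∈ Hb := hHb ▸ Subgroup.mem_sup_left (Subgroup.mem_zpowers yb)
  have hset : (Hb : Set (R ⧸ N))
      = (Subgroup.zpowers yb : Set (R ⧸ N)) * (A : Set (R ⧸ N)) := by
    rw [hHb]; exact Subgroup.mul_normal _ _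
  have hyord : Nat.card (Subgroup.zpowers yb) ≤ p := by
    rw [Nat.card_zpowers]; exact Nat.le_of_dvd hpp.pos (orderOf_dvd_of_pow_eq_one hyp)
  have hHle : Nat.card Hb ≤ p ^ 3 := by
    have h1 : Nat.card Hb
        = Nat.card ↥((Subgroup.zpowers yb : Set (R ⧸ N)) * (A : Set (R ⧸ N))) := by
      rw [← hset]; rfl
    rw [h1]
    calc Nat.card ↥((Subgroup.zpowers yb : Set (R ⧸ N)) * (A : Set (R ⧸ N)))
        ≤ Nat.card ↥(Subgroup.zpowers yb : Set (R ⧸ N)) * Nat.card ↥(A : Set (R ⧸ N)) :=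
          Set.natCard_mul_le
      _ ≤ p * p ^ 2 := Nat.mul_le_mul hyord (le_of_eq hAc)
      _ = p ^ 3 := by ring
  have hHge : p ^ 3 ≤ Nat.card Hb := by
    obtain ⟨k, hk⟩ := IsPGroup.iff_card.mp (hGb.to_subgroup Hb)
    have hlt2 : Nat.card A < Nat.card Hb := by
      by_contra hge
      push Not at hge
      have := Subgroup.eq_of_le_of_card_ge hAH hge
      exact hyA (this ▸ hyH)
    rw [hAc, hk] at hlt2
    have hk3 : 3 ≤ k := by
      by_contra hk2
      push Not at hk2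
      have : p ^ k ≤ p ^ 2 := Nat.pow_le_pow_right hpp.pos (by omega)
      omega
    rw [hk]
    exact Nat.pow_le_pow_right hpp.pos hk3
  have hHc : Nat.card Hb = p ^ 3 := le_antisymm hHle hHge
  obtain ⟨Zb, hZb⟩ : ∃ Zb : Subgroup (R ⧸ N), Zb = Subgroup.zpowers zb := ⟨_, rfl⟩
  have hZcen : ∀ b ∈ Zb, ∀ g : R ⧸ N, g * b = b * g := by
    intro b hb g
    rw [hZb] at hb
    obtain ⟨i, rfl⟩ := Subgroup.mem_zpowers_iff.mp hb
    have hc : Commute g zb := hzcen g
    exact (hc.zpow_right i).eq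
  have hZn : Zb.Normal := ⟨fun b hb g => by
    have := hZcen b hb g
    rw [this, mul_inv_cancel_right]; exact hb⟩
  have hZA : Zb ≤ A := by rw [hZb, Subgroup.zpowers_le]; exact hzA
  have hZH : Zb ≤ Hb := hZA.trans hAH
  have hZc : Nat.card Zb = p := by rw [hZb, Nat.card_zpowers, hzord]
  have hQc : Nat.card (↥Hb ⧸ Zb.subgroupOf Hb) = p ^ 2 := by
    have h1 := Subgroup.card_eq_card_quotient_mul_card_subgroup (Zb.subgroupOf Hb)
    have h2 : Nat.card (Zb.subgroupOf Hb) = Nat.card Zb :=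
      Nat.card_congr (Subgroup.subgroupOfEquivOfLe hZH).toEquiv
    rw [h2, hZc, hHc] at h1
    have h3 : p ^ 3 = p ^ 2 * p := by ring
    rw [h3] at h1
    exact (Nat.eq_of_mul_eq_mul_right hpp.pos h1).symm
  have hQcomm := isMulCommutative_iff.mp (IsPGroup.isMulCommutative_of_card_eq_prime_sq hQc)
  have hcommb : ∀ x ∈ Hb, ∀ y ∈ Hb, y⁻¹ * x⁻¹ * y * x ∈ Zb := by
    intro x hx y hy
    have h1 : ((QuotientGroup.mk ((⟨y, hy⟩ : ↥Hb)⁻¹ * (⟨x, hx⟩ : ↥Hb)⁻¹ * ⟨y, hy⟩ * ⟨x, hx⟩) :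
        ↥Hb ⧸ Zb.subgroupOf Hb)) = 1 := by
      rw [QuotientGroup.mk_mul, QuotientGroup.mk_mul, QuotientGroup.mk_mul,
        QuotientGroup.mk_inv, QuotientGroup.mk_inv]
      rw [mul_assoc, hQcomm (QuotientGroup.mk ⟨y, hy⟩) (QuotientGroup.mk ⟨x, hx⟩)]
      group
    have h2 := (QuotientGroup.eq_one_iff _).mp h1
    exact Subgroup.mem_subgroupOf.mp h2
  have hexpH : ∀ h ∈ Hb, h ^ p = 1 := by
    intro h hh
    have hh' : h ∈ (Subgroup.zpowers yb : Set (R ⧸ N)) * (A : Set (R ⧸ N)) := by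
      rw [← hset]; exact hh
    obtain ⟨x, hx, a, ha, rfl⟩ := Set.mem_mul.mp hh'
    have hxH : x ∈ Hb := hHb ▸ Subgroup.mem_sup_left hx
    have haH : a ∈ Hb := hAH ha
    obtain ⟨b, hb⟩ : ∃ b : R ⧸ N, b = a⁻¹ * x⁻¹ * a * x := ⟨_, rfl⟩
    have hbZ : b ∈ Zb := hb ▸ hcommb x hxH a haH
    have hbc := hZcen b hbZ
    have h1 : a * x = x * (a * b) := by rw [hb]; group
    have h2 : b * x = x * (b * 1) := by rw [mul_one]; exact (hbc x).symm
    have h3 : (1 : R ⧸ N) * x = x * 1 := by rw [one_mul, mul_one]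
    have hf := pow_formula x a b 1 h1 h2 h3 (hbc a) (Commute.one_right a)
      (Commute.one_right b) p
    have hxp : x ^ p = 1 := by
      obtain ⟨i, rfl⟩ := Subgroup.mem_zpowers_iff.mp hx
      rw [← zpow_natCast, ← zpow_mul, mul_comm, zpow_mul, zpow_natCast, hyp, one_zpow]
    have hap : a ^ p = 1 := hAe.2 a ha
    have hbp : b ^ p = 1 := hAe.2 b (hZA hbZ)
    obtain ⟨m2, hm2⟩ := hpp.dvd_choose_self (k := 2) (by norm_num) (by omega)
    rw [hf, hxp, hap, hm2, pow_mul, hbp]; simp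
  obtain ⟨z, hz⟩ := QuotientGroup.mk_surjective zb
  obtain ⟨H, hHdef⟩ : ∃ H : Subgroup R, H = Hb.comap (QuotientGroup.mk' N) := ⟨_, rfl⟩
  obtain ⟨Z, hZdef⟩ : ∃ Z : Subgroup R, Z = Zb.comap (QuotientGroup.mk' N) := ⟨_, rfl⟩
  have hmemH : ∀ x : R, x ∈ H ↔ (x : R ⧸ N) ∈ Hb := by
    intro x; rw [hHdef]; exact Subgroup.mem_comap
  have hmemZ : ∀ x : R, x ∈ Z ↔ (x : R ⧸ N) ∈ Zb := by
    intro x; rw [hZdef]; exact Subgroup.mem_comap
  have hmemN : ∀ x : R, x ∈ N ↔ (x : R ⧸ N) = 1 := fun x => (QuotientGroup.eq_one_iff x).symm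
  refine absurd (key hp N Z H hN hNc z ?_ ?_ ?_ ?_ ?_ ?_) (not_lt.mpr hO)
  · intro b hb x
    rw [hmemN]
    have hb' := (hmemZ b).mp hb
    have hcx := hZcen _ hb' (x : R ⧸ N)
    simp only [QuotientGroup.mk_mul, QuotientGroup.mk_inv]
    rw [mul_assoc, ← hcx]; group
  · rw [hmemZ, hz, hZb]; exact Subgroup.mem_zpowers zb
  · intro b hb
    have hb' := (hmemZ b).mp hb
    rw [hZb] at hb'
    obtain ⟨k, hk⟩ := Subgroup.mem_zpowers_iff.mp hb'
    refine ⟨k, (z ^ k)⁻¹ * b, ?_, by group⟩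
    rw [hmemN]
    simp only [QuotientGroup.mk_mul, QuotientGroup.mk_inv, QuotientGroup.mk_zpow, hz, ← hk]
    group
  · intro x hx y hy
    rw [hmemZ]
    have := hcommb _ ((hmemH x).mp hx) _ ((hmemH y).mp hy)
    simpa only [QuotientGroup.mk_mul, QuotientGroup.mk_inv] using this
  · intro x hx
    rw [hmemN, QuotientGroup.mk_pow]
    exact hexpH _ ((hmemH x).mp hx)
  · have hidx : H.index = Hb.index := by
      rw [hHdef]; exact Subgroup.index_comap_of_surjective Hb (QuotientGroup.mk'_surjective N)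
    have h1 : Nat.card H * H.index = Nat.card R := Subgroup.card_mul_index H
    have h2 : Nat.card Hb * Hb.index = Nat.card (R ⧸ N) := Subgroup.card_mul_index Hb
    have h3 : Nat.card R = Nat.card (R ⧸ N) * Nat.card N :=
      Subgroup.card_eq_card_quotient_mul_card_subgroup N
    have hpos : 0 < Hb.index := Nat.pos_of_ne_zero Subgroup.index_ne_zero_of_finite
    have h4 : Nat.card H * Hb.index = p ^ 4 * Hb.index := by
      rw [← hidx, h1, h3, ← h2, hHc, hNc, hidx]; ring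
    exact le_of_eq (Nat.eq_of_mul_eq_mul_right hpos h4).symm

theorem main {p : ℕ} [Fact p.Prime] (hp : 3 < p) :
    ∀ (n : ℕ) (R : Type u) [Group R] [Finite R], Nat.card R = n → IsPGroup p R →
      Nat.card (Cfsg.omegaOne p (⊤ : Subgroup R)) ≤ p ^ 2 →
      ∀ (T : Subgroup R) [T.Normal],
        Nat.card (Cfsg.omegaOne p (⊤ : Subgroup (R ⧸ T))) ≤ p ^ 2 := by
  intro n
  induction n using Nat.strong_induction_on with
  | _ n ih =>
    intro R _ _ hn hR hO T _
    have hpp : p.Prime := Fact.out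
    by_cases hT : T = ⊥
    · subst hT
      rw [card_omega_congr p (QuotientGroup.quotientBot (G := R))]
      exact hO
    · have hTcard : p ∣ Nat.card T := p_dvd_card_of_ne_bot (hR.to_subgroup T) hT
      have hTn : (⊤ : Subgroup R) ≤ Subgroup.normalizer (T : Set R) := by
        rw [Subgroup.normalizer_eq_top]
      obtain ⟨w, hwT, hw1, hwc⟩ :=
        Cfsg.Agent.Lib.Helper19.exists_ne_one_mem_centralizer_of_le_normalizer (p := p)
          (P := ⊤) (K := T) (hR.to_subgroup ⊤) hTn hTcard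
      have hwcen : w ∈ Subgroup.center R := by
        rw [Subgroup.mem_center_iff]
        intro g
        exact (Subgroup.mem_centralizer_iff.mp hwc) g (Subgroup.mem_top g)
      have hKne : T ⊓ Subgroup.center R ≠ ⊥ := by
        intro h
        have : w ∈ T ⊓ Subgroup.center R := ⟨hwT, hwcen⟩
        rw [h, Subgroup.mem_bot] at this
        exact hw1 this
      have hKd : p ∣ Nat.card ↥(T ⊓ Subgroup.center R) :=
        p_dvd_card_of_ne_bot (hR.to_subgroup _) hKne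
      obtain ⟨g, hg⟩ := exists_prime_orderOf_dvd_card' (G := ↥(T ⊓ Subgroup.center R)) p hKd
      obtain ⟨N, hNdef⟩ : ∃ N : Subgroup R, N = Subgroup.zpowers (g : R) := ⟨_, rfl⟩
      have hNT : N ≤ T := by
        rw [hNdef, Subgroup.zpowers_le]; exact g.2.1
      have hNcen : N ≤ Subgroup.center R := by
        rw [hNdef, Subgroup.zpowers_le]; exact g.2.2
      have hNc : Nat.card N = p := by
        rw [hNdef, Nat.card_zpowers, Subgroup.orderOf_coe, hg]
      have hNn : N.Normal := ⟨fun n hn g => by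
        have h := hNcen hn
        rw [Subgroup.mem_center_iff] at h
        rw [h g, mul_inv_cancel_right]; exact hn⟩
      have hb := base hp hR N hNcen hNc hO
      have hlt : Nat.card (R ⧸ N) < n := by
        have h3 := Subgroup.card_eq_card_quotient_mul_card_subgroup N
        rw [hn, hNc] at h3
        have hpos : 0 < Nat.card (R ⧸ N) := Nat.card_pos
        nlinarith [hpp.two_le]
      have hq := ih (Nat.card (R ⧸ N)) hlt (R ⧸ N) rfl (hR.to_quotient N) hb
        (T.map (QuotientGroup.mk' N))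
      rw [card_omega_congr p (QuotientGroup.quotientQuotientEquivQuotient N T hNT)] at hq
      exact hq

end Cfsg.Agent.Lib.Helper19.OQ
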