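import Mathlib
import Cfsg.Prelude.Def_PLocal
import Cfsg.Prelude.Def_OddOrderLocal
import Cfsg.Agent.S0636
import Cfsg.Agent.S0637
import Cfsg.Agent.Lib.Helper19.PGroupFixed
import Cfsg.Agent.Lib.Helper19.OmegaQuot
import Cfsg.Agent.Lib.Helper19.OmegaQuotB
import Cfsg.Agent.Lib.Helper19.MetaCyc

set_option autoImplicit false

universe u

namespace Cfsg.Agent.Lib.Helper19.MC

open Subgroup

theorem exists_elab {Q : Type u} [Group Q] [Finite Q] {p : ℕ} [Fact p.Prime] (hp : p ≠ 2)
    (hQ : IsPGroup p Q) (hnc : ¬ IsCyclic Q) :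
    ∃ A : Subgroup Q, Cfsg.IsElementaryAbelian p A ∧ Nat.card A = p ^ 2 := by
  have hnc' : ¬ IsCyclic ↥(⊤ : Subgroup Q) := by
    intro hcyc
    exact hnc (isCyclic_of_surjective (⊤ : Subgroup Q).subtype
      (fun x => ⟨⟨x, Subgroup.mem_top x⟩, rfl⟩))
  obtain ⟨A, -, -, hAe, hAc⟩ := Cfsg.Agent.S0636.result hp hQ (⊤ : Subgroup Q) hnc'
  exact ⟨A, hAe, hAc⟩

theorem comm_of_cyclic {Q : Type*} [Group Q] (h : IsCyclic Q) : IsMulCommutative Q := by
  obtain ⟨g, hg⟩ := IsCyclic.exists_generator (α := Q)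
  rw [isMulCommutative_iff]
  intro a b
  obtain ⟨i, rfl⟩ := Subgroup.mem_zpowers_iff.mp (hg a)
  obtain ⟨j, rfl⟩ := Subgroup.mem_zpowers_iff.mp (hg b)
  exact ((Commute.refl g).zpow_zpow i j).eq

theorem comm_of_card_le_sq {Q : Type*} [Group Q] [Finite Q] {p : ℕ} [Fact p.Prime]
    (hQ : IsPGroup p Q) (h : Nat.card Q ≤ p ^ 2) : IsMulCommutative Q := by
  have hpp : p.Prime := Fact.out
  obtain ⟨k, hk⟩ := IsPGroup.iff_card.mp hQ
  have hk2 : k ≤ 2 := by
    by_contra hk3
    push Not at hk3
    have h1 : p ^ 3 ≤ p ^ k := Nat.pow_le_pow_right hpp.pos hk3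
    have h2 : p ^ 2 < p ^ 3 := Nat.pow_lt_pow_right hpp.one_lt (by norm_num)
    omega
  interval_cases k
  · have hs : Subsingleton Q := (Nat.card_eq_one_iff_unique.mp (by simpa using hk)).1
    exact isMulCommutative_iff.mpr (fun a b => Subsingleton.elim _ _)
  · exact comm_of_cyclic (isCyclic_of_prime_card (p := p) (by simpa using hk))
  · exact IsPGroup.isMulCommutative_of_card_eq_prime_sq hk

/-- class two case -/
theorem step_two {G : Type u} [Group G] [Finite G] {p : ℕ} [Fact p.Prime] (hp2 : p ≠ 2)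
    (hG : IsPGroup p G)
    (hcen : ∀ c ∈ commutator G, ∀ g : G, c * g = g * c)
    (hexp : ∀ c ∈ commutator G, c ^ p = 1)
    (hC : ∀ (T : Subgroup G) [T.Normal],
      Nat.card (Cfsg.omegaOne p (⊤ : Subgroup (G ⧸ T))) ≤ p ^ 2)
    (z : G) (hz : commutator G ≤ Subgroup.zpowers z) (hzG : z ∈ commutator G) :
    Cfsg.IsMetacyclic G := by
  have hpp : p.Prime := Fact.out
  have hodd : p ∣ p.choose 2 :=
    hpp.dvd_choose_self (by norm_num) (by have := hpp.two_le; omega)
  have hpowmul : ∀ x y : G, (x * y) ^ p = x ^ p * y ^ p := by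
    intro x y
    obtain ⟨b, hb⟩ : ∃ b : G, b = y⁻¹ * x⁻¹ * y * x := ⟨_, rfl⟩
    have hbG : b ∈ commutator G := by
      rw [hb, commutator_eq_closure]
      apply Subgroup.subset_closure
      exact ⟨y⁻¹, x⁻¹, by rw [commutatorElement_def]; group⟩
    have hbc := hcen b hbG
    have h1 : y * x = x * (y * b) := by rw [hb]; group
    have h2 : b * x = x * (b * 1) := by rw [mul_one]; exact hbc x
    have h3 : (1 : G) * x = x * 1 := by rw [one_mul, mul_one]
    have hf := OQ.pow_formula x y b 1 h1 h2 h3 (hbc y).symm (Commute.one_right y)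
      (Commute.one_right b) p
    obtain ⟨m2, hm2⟩ := hodd
    rw [hf, hm2, pow_mul, hexp b hbG]; simp
  obtain ⟨φ, hφ⟩ : ∃ φ : G →* G, ∀ x, φ x = x ^ p :=
    ⟨MonoidHom.mk' (fun x => x ^ p) hpowmul, fun x => rfl⟩
  have hPn : φ.range.Normal := by
    constructor
    rintro _ ⟨x, rfl⟩ g
    exact ⟨g * x * g⁻¹, by rw [hφ, hφ, conj_pow]⟩
  have hidx : Nat.card (G ⧸ φ.range) ≤ p ^ 2 := by
    have h1 := hC φ.range
    have h2 : Cfsg.omegaOne p (⊤ : Subgroup (G ⧸ φ.range)) = ⊤ := by
      rw [eq_top_iff]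
      intro q _
      obtain ⟨g, rfl⟩ := QuotientGroup.mk_surjective q
      apply Subgroup.subset_closure
      refine ⟨Subgroup.mem_top _, ?_⟩
      rw [← QuotientGroup.mk_pow]
      exact (QuotientGroup.eq_one_iff _).mpr ⟨g, hφ g⟩
    rw [h2, Subgroup.card_top] at h1
    exact h1
  have hG'P : commutator G ≤ φ.range := by
    apply Subgroup.Normal.quotient_commutative_iff_commutator_le.mp
    exact comm_of_card_le_sq (hG.to_quotient _) hidx
  obtain ⟨x₀, hx₀⟩ := hG'P hzG
  rw [hφ] at hx₀
  have hfin : {c : G | commutator G ≤ Subgroup.zpowers c}.Finite := Set.toFinite _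
  have hne : {c : G | commutator G ≤ Subgroup.zpowers c}.Nonempty :=
    ⟨x₀, hz.trans (by
      rw [Subgroup.zpowers_le, ← hx₀]
      exact Subgroup.pow_mem _ (Subgroup.mem_zpowers x₀) p)⟩
  obtain ⟨c, hc, hcmax⟩ := Set.exists_max_image _ (fun c : G => orderOf c) hfin hne
  have hc' : commutator G ≤ Subgroup.zpowers c := hc
  have hCn : (Subgroup.zpowers c).Normal := by
    constructor
    intro x hx g
    have e : g * x * g⁻¹ = (g * x * g⁻¹ * x⁻¹) * x := by group
    rw [e]
    apply Subgroup.mul_mem _ _ hx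
    apply hc'
    rw [commutator_eq_closure]
    exact Subgroup.subset_closure ⟨g, x, by rw [commutatorElement_def]⟩
  have hQcomm : IsMulCommutative (G ⧸ Subgroup.zpowers c) :=
    Subgroup.Normal.quotient_commutative_iff_commutator_le.mpr hc'
  refine ⟨Subgroup.zpowers c, hCn, inferInstance, ?_⟩
  by_contra hncyc
  have hQp : IsPGroup p (G ⧸ Subgroup.zpowers c) := hG.to_quotient _
  obtain ⟨A, hAe, hAc⟩ := exists_elab hp2 hQp hncyc
  have hmulQ : ∀ x y : G ⧸ Subgroup.zpowers c, (x * y) ^ p = x ^ p * y ^ p := fun x y =>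
    Commute.mul_pow (mul_comm' x y) p
  obtain ⟨ψ, hψ⟩ : ∃ ψ : (G ⧸ Subgroup.zpowers c) →* (G ⧸ Subgroup.zpowers c),
      ∀ x, ψ x = x ^ p := ⟨MonoidHom.mk' (fun x => x ^ p) hmulQ, fun x => rfl⟩
  have hAker : A ≤ ψ.ker := fun x hx => by
    rw [MonoidHom.mem_ker, hψ]; exact hAe.2 x hx
  have hker : p ^ 2 ≤ Nat.card ψ.ker := hAc ▸ Subgroup.card_le_of_le hAker
  have hrange : p ^ 2 ≤ ψ.range.index := by
    have h1 : Nat.card ψ.ker * Nat.card ψ.range = Nat.card (G ⧸ Subgroup.zpowers c) := by
      rw [← Subgroup.index_ker]; exact Subgroup.card_mul_index _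
    have h2 : Nat.card ψ.range * ψ.range.index = Nat.card (G ⧸ Subgroup.zpowers c) :=
      Subgroup.card_mul_index _
    have h3 : 0 < Nat.card ψ.range := Nat.card_pos
    have h4 : ψ.range.index = Nat.card ψ.ker := by
      have h5 : Nat.card ψ.range * ψ.range.index = Nat.card ψ.range * Nat.card ψ.ker := by
        rw [h2, ← h1, mul_comm]
      exact Nat.eq_of_mul_eq_mul_left h3 h5
    rw [h4]; exact hker
  obtain ⟨L, hL⟩ : ∃ L : Subgroup G,
      L = ψ.range.comap (QuotientGroup.mk' (Subgroup.zpowers c)) := ⟨_, rfl⟩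
  have hLidx : L.index = ψ.range.index := by
    rw [hL]; exact Subgroup.index_comap_of_surjective _ (QuotientGroup.mk'_surjective _)
  have hPL : φ.range ≤ L := by
    rintro _ ⟨x, rfl⟩
    rw [hL, Subgroup.mem_comap, hφ]
    exact ⟨QuotientGroup.mk x, by rw [hψ]; rfl⟩
  have hcL : c ∈ L := by
    rw [hL, Subgroup.mem_comap]
    have h0 : (QuotientGroup.mk' (Subgroup.zpowers c)) c = 1 :=
      (QuotientGroup.eq_one_iff c).mpr (Subgroup.mem_zpowers c)
    rw [h0]; exact Subgroup.one_mem _
  have hLP : L = φ.range := by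
    have h1 : L.index ∣ φ.range.index := Subgroup.index_dvd_of_le hPL
    have h2 : φ.range.index ≠ 0 := Subgroup.index_ne_zero_of_finite
    have h3 : L.index ≤ φ.range.index := Nat.le_of_dvd (Nat.pos_of_ne_zero h2) h1
    have h3' : φ.range.index ≤ p ^ 2 := hidx
    have h4 : L.index = φ.range.index := by
      rw [hLidx] at h3 ⊢; omega
    have h5 : Nat.card L * L.index = Nat.card G := Subgroup.card_mul_index L
    have h6 : Nat.card φ.range * φ.range.index = Nat.card G := Subgroup.card_mul_index _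
    have h7 : Nat.card L = Nat.card φ.range := by
      rw [h4, ← h6] at h5
      exact Nat.eq_of_mul_eq_mul_right (Nat.pos_of_ne_zero h2) h5
    exact (Subgroup.eq_of_le_of_card_ge hPL (le_of_eq h7)).symm
  rw [hLP] at hcL
  obtain ⟨d, hd⟩ := hcL
  rw [hφ] at hd
  have hdS : commutator G ≤ Subgroup.zpowers d := hc'.trans (by
    rw [Subgroup.zpowers_le, ← hd]
    exact Subgroup.pow_mem _ (Subgroup.mem_zpowers d) p)
  have hle := hcmax d hdS
  have hd1 : d = 1 := by
    by_contra hne1
    obtain ⟨k, hk⟩ := hG d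
    obtain ⟨i, -, hi⟩ := (Nat.dvd_prime_pow hpp).mp (orderOf_dvd_of_pow_eq_one hk)
    have hi0 : i ≠ 0 := by
      rintro rfl
      rw [pow_zero, orderOf_eq_one_iff] at hi
      exact hne1 hi
    have hoc : orderOf c = p ^ (i - 1) := by
      rw [← hd, orderOf_pow, hi]
      have hg : Nat.gcd (p ^ i) p = p := Nat.gcd_eq_right (dvd_pow_self p hi0)
      rw [hg]
      obtain ⟨j, rfl⟩ := Nat.exists_eq_succ_of_ne_zero hi0
      rw [Nat.succ_sub_one, pow_succ, Nat.mul_div_cancel _ hpp.pos]
    have hle' : orderOf d ≤ orderOf c := hle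
    rw [hoc, hi] at hle'
    have hlt : p ^ (i - 1) < p ^ i := Nat.pow_lt_pow_right hpp.one_lt (by omega)
    omega
  have hc1 : c = 1 := by rw [← hd, hd1, one_pow]
  have hall : ∀ x : G, x = 1 := by
    intro x
    have hxS : commutator G ≤ Subgroup.zpowers x := hc'.trans (by
      rw [hc1, Subgroup.zpowers_one_eq_bot]; exact bot_le)
    have h0 : orderOf x ≤ orderOf c := hcmax x hxS
    rw [hc1, orderOf_one] at h0
    have hpos : 0 < orderOf x := orderOf_pos x
    exact orderOf_eq_one_iff.mp (by omega)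
  apply hncyc
  have hss : Subsingleton (G ⧸ Subgroup.zpowers c) := ⟨fun x y => by
    obtain ⟨x, rfl⟩ := QuotientGroup.mk_surjective x
    obtain ⟨y, rfl⟩ := QuotientGroup.mk_surjective y
    rw [hall x, hall y]⟩
  exact isCyclic_of_subsingleton

theorem normal_zpowers_of_central {G : Type*} [Group G] (z : G) (h : ∀ g : G, z * g = g * z) :
    (Subgroup.zpowers z).Normal := by
  constructor
  intro x hx g
  obtain ⟨i, rfl⟩ := Subgroup.mem_zpowers_iff.mp hx
  have hc : Commute z g := h g
  have e : g * z ^ i * g⁻¹ = z ^ i := by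
    rw [← (hc.zpow_left i).eq, mul_inv_cancel_right]
  rw [e]; exact Subgroup.zpow_mem _ (Subgroup.mem_zpowers _) i

theorem main {p : ℕ} [Fact p.Prime] (hp : 3 < p) :
    ∀ (n : ℕ) (G : Type u) [Group G] [Finite G], Nat.card G = n → IsPGroup p G →
      Nat.card (Cfsg.omegaOne p (⊤ : Subgroup G)) ≤ p ^ 2 → Cfsg.IsMetacyclic G := by
  intro n
  induction n using Nat.strong_induction_on with
  | _ n ih =>
    intro G _ _ hn hG hO
    have hpp : p.Prime := Fact.out
    have hp2 : p ≠ 2 := by omega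
    have hC : ∀ (T : Subgroup G) [T.Normal],
        Nat.card (Cfsg.omegaOne p (⊤ : Subgroup (G ⧸ T))) ≤ p ^ 2 :=
      fun T _ => Cfsg.Agent.S0637.result hp hG hO T
    have hquot : ∀ (N : Subgroup G) [N.Normal], N ≠ ⊥ → Cfsg.IsMetacyclic (G ⧸ N) := by
      intro N _ hNne
      have hlt : Nat.card (G ⧸ N) < n := by
        have h3 := Subgroup.card_eq_card_quotient_mul_card_subgroup N
        rw [hn] at h3
        have h1 : 1 < Nat.card N := by
          by_contra h
          push Not at h
          have h2 : Nat.card N = 1 := le_antisymm h Nat.card_pos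
          exact hNne (Subgroup.card_eq_one.mp h2)
        have hpos : 0 < Nat.card (G ⧸ N) := Nat.card_pos
        nlinarith
      exact ih _ hlt (G ⧸ N) rfl (hG.to_quotient N) (hC N)
    by_cases hW : Wsub p G = ⊥
    · have hcen : ∀ c ∈ commutator G, ∀ g : G, c * g = g * c := by
        intro c hc g
        have h1 : c⁻¹ * g⁻¹ * c * g ∈ Wsub p G :=
          Subgroup.subset_closure (Or.inl ⟨c, hc, g, rfl⟩)
        rw [hW, Subgroup.mem_bot] at h1
        have h2 : c * g = g * c * (c⁻¹ * g⁻¹ * c * g) := by group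
        rw [h1, mul_one] at h2
        exact h2
      have hexp : ∀ c ∈ commutator G, c ^ p = 1 := by
        intro c hc
        have h1 : c ^ p ∈ Wsub p G := Subgroup.subset_closure (Or.inr ⟨c, hc, rfl⟩)
        rwa [hW, Subgroup.mem_bot] at h1
      by_cases hG' : commutator G = ⊥
      · exact step_two hp2 hG hcen hexp hC 1 (by rw [hG']; exact bot_le) (Subgroup.one_mem _)
      · obtain ⟨z₀, hz₀, hz₀1⟩ : ∃ z₀ ∈ commutator G, z₀ ≠ 1 := by
          by_contra hno
          push Not at hno
          exact hG' ((Subgroup.eq_bot_iff_forall _).mpr hno)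
        have hNn : (Subgroup.zpowers z₀).Normal :=
          normal_zpowers_of_central z₀ (hcen z₀ hz₀)
        have hNne : Subgroup.zpowers z₀ ≠ ⊥ := by
          rw [Ne, Subgroup.zpowers_eq_bot]; exact hz₀1
        have hm := hquot (Subgroup.zpowers z₀) hNne
        obtain ⟨ab, bb, -, hgen⟩ := meta_gens hm
        obtain ⟨a, rfl⟩ := QuotientGroup.mk_surjective ab
        obtain ⟨b, rfl⟩ := QuotientGroup.mk_surjective bb
        have hgenG : ∀ g : G, ∃ i j k : ℤ, g = b ^ i * a ^ j * z₀ ^ k := by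
          intro g
          obtain ⟨i, j, hij⟩ := hgen (g : G ⧸ Subgroup.zpowers z₀)
          have h1 : (b ^ i * a ^ j)⁻¹ * g ∈ Subgroup.zpowers z₀ := by
            apply QuotientGroup.eq.mp
            rw [QuotientGroup.mk_mul, QuotientGroup.mk_zpow, QuotientGroup.mk_zpow]
            exact hij.symm
          obtain ⟨k, hk⟩ := Subgroup.mem_zpowers_iff.mp h1
          exact ⟨i, j, k, by rw [hk]; group⟩
        obtain ⟨z, hzdef⟩ : ∃ z : G, z = a⁻¹ * b⁻¹ * a * b := ⟨_, rfl⟩
        have hzG : z ∈ commutator G := by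
          rw [hzdef, commutator_eq_closure]
          exact Subgroup.subset_closure ⟨a⁻¹, b⁻¹, by rw [commutatorElement_def]; group⟩
        have hzn : (Subgroup.zpowers z).Normal := normal_zpowers_of_central z (hcen z hzG)
        have hle : commutator G ≤ Subgroup.zpowers z := by
          apply Subgroup.Normal.quotient_commutative_iff_commutator_le.mp
          rw [isMulCommutative_iff]
          have hα : Commute (QuotientGroup.mk a : G ⧸ Subgroup.zpowers z)
              (QuotientGroup.mk b) := by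
            have h3 : (QuotientGroup.mk (a * b) : G ⧸ Subgroup.zpowers z)
                = QuotientGroup.mk (b * a) := by
              apply QuotientGroup.eq.mpr
              have e : (a * b)⁻¹ * (b * a) = z⁻¹ := by rw [hzdef]; group
              rw [e]; exact Subgroup.inv_mem _ (Subgroup.mem_zpowers z)
            exact h3
          have hζ : ∀ g : G ⧸ Subgroup.zpowers z,
              Commute (QuotientGroup.mk z₀ : G ⧸ Subgroup.zpowers z) g := by
            intro g
            obtain ⟨g, rfl⟩ := QuotientGroup.mk_surjective g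
            have h3 : (QuotientGroup.mk (z₀ * g) : G ⧸ Subgroup.zpowers z)
                = QuotientGroup.mk (g * z₀) := by rw [hcen z₀ hz₀ g]
            exact h3
          intro x y
          obtain ⟨x, rfl⟩ := QuotientGroup.mk_surjective x
          obtain ⟨y, rfl⟩ := QuotientGroup.mk_surjective y
          obtain ⟨i, j, k, rfl⟩ := hgenG x
          obtain ⟨i', j', k', rfl⟩ := hgenG y
          simp only [QuotientGroup.mk_mul, QuotientGroup.mk_zpow]
          have c1 := (Commute.refl (QuotientGroup.mk b : G ⧸ Subgroup.zpowers z)).zpow_zpow i i'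
          have c2 := hα.symm.zpow_zpow i j'
          have c3 := hα.zpow_zpow j i'
          have c4 := (Commute.refl (QuotientGroup.mk a : G ⧸ Subgroup.zpowers z)).zpow_zpow j j'
          have c5 := (c1.mul_right c2).mul_left (c3.mul_right c4)
          have c6 : ∀ (w : G ⧸ Subgroup.zpowers z) (m : ℤ),
              Commute w ((QuotientGroup.mk z₀) ^ m) := fun w m => ((hζ w).zpow_left m).symm
          have c7 : ∀ (w : G ⧸ Subgroup.zpowers z) (m : ℤ),
              Commute ((QuotientGroup.mk z₀ : G ⧸ Subgroup.zpowers z) ^ m) w :=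
            fun w m => (hζ w).zpow_left m
          exact (Commute.mul_left (c5.mul_right (c6 _ k')) (c7 _ k)).eq
        exact step_two hp2 hG hcen hexp hC z hle hzG
    · have hWn : (Wsub p G).Normal := Wsub_normal p G
      have hWd : p ∣ Nat.card (Wsub p G) := OQ.p_dvd_card_of_ne_bot (hG.to_subgroup _) hW
      have hTn : (⊤ : Subgroup G) ≤ Subgroup.normalizer (Wsub p G : Set G) := by
        rw [Subgroup.normalizer_eq_top]
      obtain ⟨w, hwT, hw1, hwc⟩ :=
        Cfsg.Agent.Lib.Helper19.exists_ne_one_mem_centralizer_of_le_normalizer (p := p)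
          (P := ⊤) (K := Wsub p G) (hG.to_subgroup ⊤) hTn hWd
      have hwcen : w ∈ Subgroup.center G := by
        rw [Subgroup.mem_center_iff]
        intro g
        exact (Subgroup.mem_centralizer_iff.mp hwc) g (Subgroup.mem_top g)
      have hKne : Wsub p G ⊓ Subgroup.center G ≠ ⊥ := by
        intro h
        have h0 : w ∈ Wsub p G ⊓ Subgroup.center G := ⟨hwT, hwcen⟩
        rw [h, Subgroup.mem_bot] at h0
        exact hw1 h0
      have hKd : p ∣ Nat.card ↥(Wsub p G ⊓ Subgroup.center G) :=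
        OQ.p_dvd_card_of_ne_bot (hG.to_subgroup _) hKne
      obtain ⟨g, hg⟩ :=
        exists_prime_orderOf_dvd_card' (G := ↥(Wsub p G ⊓ Subgroup.center G)) p hKd
      obtain ⟨N, hNdef⟩ : ∃ N : Subgroup G, N = Subgroup.zpowers (g : G) := ⟨_, rfl⟩
      have hNW : N ≤ Wsub p G := by
        rw [hNdef, Subgroup.zpowers_le]; exact g.2.1
      have hNcen : N ≤ Subgroup.center G := by
        rw [hNdef, Subgroup.zpowers_le]; exact g.2.2
      have hNc : Nat.card N = p := by
        rw [hNdef, Nat.card_zpowers, Subgroup.orderOf_coe, hg]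
      have hNn : N.Normal := ⟨fun n hn g => by
        have h := hNcen hn
        rw [Subgroup.mem_center_iff] at h
        rw [h g, mul_inv_cancel_right]; exact hn⟩
      have hNp : ∀ n ∈ N, n ^ p = 1 := by
        intro n hn
        have h := pow_card_eq_one' (G := ↥N) (x := ⟨n, hn⟩)
        rw [hNc] at h
        exact congrArg Subtype.val h
      have hNne : N ≠ ⊥ := by
        intro h
        rw [h, Subgroup.card_bot] at hNc
        exact hpp.one_lt.ne hNc
      exact step_one hG N hNcen hNp hNW (hquot N hNne)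

end Cfsg.Agent.Lib.Helper19.MC
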