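import Mathlib
import Cfsg.Agent.Lib.Helper11.OmegaOne
import Cfsg.Agent.Lib.Helper19.PGroupFixed
import Cfsg.Agent.Lib.Helper19.CD

set_option autoImplicit false

namespace Cfsg.Agent.Lib.Helper19.NormalElAb

open Subgroup
open scoped commutatorElement

variable {G : Type*} [Group G]

/-- internal elementary abelian predicate -/
def EA (p : ℕ) (A : Subgroup G) : Prop :=
  (∀ a ∈ A, ∀ b ∈ A, a * b = b * a) ∧ ∀ a ∈ A, a ^ p = 1

/-- product formula for a subgroup normalizing another -/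
theorem card_sup_mul_card_inf {H N : Subgroup G} (h : H ≤ normalizer (N : Set G)) :
    Nat.card (H ⊔ N : Subgroup G) * Nat.card (H ⊓ N : Subgroup G) = Nat.card H * Nat.card N := by
  have _i1 : (N.subgroupOf H).Normal := Subgroup.normal_subgroupOf_of_le_normalizer h
  have _i2 : (N.subgroupOf (H ⊔ N)).Normal := Subgroup.normal_subgroupOf_sup_of_le_normalizer h
  have h1 : N.relIndex H = N.relIndex (H ⊔ N) :=
    Nat.card_congr (QuotientGroup.quotientInfEquivProdNormalizerQuotient H N h).toEquiv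
  have h2 : Nat.card (H ⊓ N : Subgroup G) * N.relIndex H = Nat.card H := by
    rw [← inf_relIndex_left]
    exact Cfsg.Agent.Lib.Helper19.card_mul_relIndex_of_le inf_le_left
  have h3 : Nat.card N * N.relIndex (H ⊔ N) = Nat.card (H ⊔ N : Subgroup G) :=
    Cfsg.Agent.Lib.Helper19.card_mul_relIndex_of_le le_sup_right
  rw [← h3, ← h2, h1]; ring

/-- a strict inclusion in a `p`-group costs a factor `p` -/
theorem p_mul_card_le_of_lt [Finite G] {p : ℕ} [hp : Fact p.Prime] (hG : IsPGroup p G)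
    {X Y : Subgroup G} (h : X < Y) : p * Nat.card X ≤ Nat.card Y := by
  have h1 := Cfsg.Agent.Lib.Helper19.card_mul_relIndex_of_le h.le
  have h2 : X.relIndex Y ≠ 1 := fun h0 => h.not_ge (relIndex_eq_one.mp h0)
  obtain ⟨n, hn⟩ := IsPGroup.iff_card.mp (hG.to_subgroup Y)
  have h3 : X.relIndex Y ∣ p ^ n := hn ▸ relIndex_dvd_card X Y
  obtain ⟨k, hk, hk'⟩ := (Nat.dvd_prime_pow hp.out).mp h3
  have hk1 : k ≠ 0 := by
    rintro rfl
    exact h2 (by simpa using hk')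
  have h4 : p ≤ X.relIndex Y := by
    rw [hk']; exact Nat.le_self_pow hk1 p
  calc p * Nat.card X ≤ X.relIndex Y * Nat.card X := Nat.mul_le_mul_right _ h4
    _ = Nat.card Y := by rw [mul_comm]; exact h1

/-- odd `p`: product of two elements of order `p` with central commutator of order `p` -/
theorem pow_mul_eq_one {p : ℕ} [hp : Fact p.Prime] (hp2 : p ≠ 2) (a b : G) (ha : a ^ p = 1)
    (hb : b ^ p = 1) (hza : ⁅b, a⁆ * a = a * ⁅b, a⁆) (hzb : ⁅b, a⁆ * b = b * ⁅b, a⁆)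
    (hz : ⁅b, a⁆ ^ p = 1) : (a * b) ^ p = 1 := by
  rw [Cfsg.Agent.Lib.Helper11.mul_pow_class_two a b hza hzb p, ha, hb, one_mul, one_mul]
  have hodd : Odd p := hp.out.odd_of_ne_two hp2
  obtain ⟨m, hm⟩ := hodd
  have h1 : p * (p - 1) / 2 = p * m := by
    have h2 : p - 1 = 2 * m := by omega
    rw [h2, ← mul_assoc, mul_comm p 2, mul_assoc, Nat.mul_div_cancel_left _ (by norm_num)]
  rw [h1, pow_mul, hz, one_pow]

/-- commutativity of a join -/
theorem comm_of_sup {H K : Subgroup G} (hH : ∀ a ∈ H, ∀ b ∈ H, a * b = b * a)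
    (hK : ∀ a ∈ K, ∀ b ∈ K, a * b = b * a) (hHK : ∀ a ∈ H, ∀ b ∈ K, a * b = b * a) :
    ∀ a ∈ H ⊔ K, ∀ b ∈ H ⊔ K, a * b = b * a := by
  have s1 : ∀ b ∈ H, H ⊔ K ≤ centralizer ({b} : Set G) := by
    intro b hb
    refine sup_le (fun a ha => ?_) (fun a ha => ?_)
    · rw [mem_centralizer_iff]; intro c hc
      rw [Set.mem_singleton_iff] at hc; subst hc
      exact hH c hb a ha
    · rw [mem_centralizer_iff]; intro c hc
      rw [Set.mem_singleton_iff] at hc; subst hc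
      exact hHK c hb a ha
  have s2 : ∀ b ∈ K, H ⊔ K ≤ centralizer ({b} : Set G) := by
    intro b hb
    refine sup_le (fun a ha => ?_) (fun a ha => ?_)
    · rw [mem_centralizer_iff]; intro c hc
      rw [Set.mem_singleton_iff] at hc; subst hc
      exact (hHK a ha c hb).symm
    · rw [mem_centralizer_iff]; intro c hc
      rw [Set.mem_singleton_iff] at hc; subst hc
      exact hK c hb a ha
  have s3 : ∀ a ∈ H ⊔ K, H ⊔ K ≤ centralizer ({a} : Set G) := by
    intro a ha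
    refine sup_le (fun b hb => ?_) (fun b hb => ?_)
    · rw [mem_centralizer_iff]; intro c hc
      rw [Set.mem_singleton_iff] at hc; subst hc
      exact (mem_centralizer_iff.mp (s1 b hb ha) b rfl).symm
    · rw [mem_centralizer_iff]; intro c hc
      rw [Set.mem_singleton_iff] at hc; subst hc
      exact (mem_centralizer_iff.mp (s2 b hb ha) b rfl).symm
  intro a ha b hb
  exact mem_centralizer_iff.mp (s3 a ha hb) a rfl

/-- exponent of a commutative join -/
theorem pow_eq_one_of_sup {p : ℕ} {H K : Subgroup G}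
    (hc : ∀ a ∈ H ⊔ K, ∀ b ∈ H ⊔ K, a * b = b * a) (hH : ∀ a ∈ H, a ^ p = 1)
    (hK : ∀ a ∈ K, a ^ p = 1) : ∀ a ∈ H ⊔ K, a ^ p = 1 := by
  let T : Subgroup G :=
    { carrier := {a | a ∈ H ⊔ K ∧ a ^ p = 1}
      mul_mem' := fun {a b} ha hb => ⟨mul_mem ha.1 hb.1, by
        rw [(show Commute a b from hc a ha.1 b hb.1).mul_pow, ha.2, hb.2, one_mul]⟩
      one_mem' := ⟨one_mem _, one_pow _⟩
      inv_mem' := fun {a} ha => ⟨inv_mem ha.1, by rw [inv_pow, ha.2, inv_one]⟩ }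
  have h1 : H ⊔ K ≤ T :=
    sup_le (fun a ha => ⟨mem_sup_left ha, hH a ha⟩) (fun a ha => ⟨mem_sup_right ha, hK a ha⟩)
  exact fun a ha => (h1 ha).2

theorem EA.sup {p : ℕ} {H K : Subgroup G} (hH : EA p H) (hK : EA p K)
    (hHK : ∀ a ∈ H, ∀ b ∈ K, a * b = b * a) : EA p (H ⊔ K) :=
  ⟨comm_of_sup hH.1 hK.1 hHK, pow_eq_one_of_sup (comm_of_sup hH.1 hK.1 hHK) hH.2 hK.2⟩

theorem EA.mono {p : ℕ} {H K : Subgroup G} (hK : EA p K) (h : H ≤ K) : EA p H :=
  ⟨fun a ha b hb => hK.1 a (h ha) b (h hb), fun a ha => hK.2 a (h ha)⟩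

theorem EA.zpowers {p : ℕ} {x : G} (hx : x ^ p = 1) : EA p (zpowers x) := by
  constructor
  · intro a ha b hb
    obtain ⟨i, rfl⟩ := mem_zpowers_iff.mp ha
    obtain ⟨j, rfl⟩ := mem_zpowers_iff.mp hb
    exact ((Commute.refl x).zpow_zpow i j).eq
  · intro a ha
    obtain ⟨i, rfl⟩ := mem_zpowers_iff.mp ha
    rw [← zpow_natCast, ← zpow_mul, mul_comm, zpow_mul, zpow_natCast, hx, one_zpow]

theorem EA.map {p : ℕ} {H : Subgroup G} (hH : EA p H) (f : G →* G) : EA p (H.map f) := by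
  constructor
  · rintro _ ⟨a, ha, rfl⟩ _ ⟨b, hb, rfl⟩
    rw [← map_mul, ← map_mul, hH.1 a ha b hb]
  · rintro _ ⟨a, ha, rfl⟩
    rw [← map_pow, hH.2 a ha, map_one]

/-- an element of order `p` outside a normal subgroup: the join has `p` times the order -/
theorem card_sup_zpowers {p : ℕ} [hp : Fact p.Prime] {B : Subgroup G} [hBn : B.Normal]
    {x : G} (hx : x ^ p = 1) (hxB : x ∉ B) :
    Nat.card (B ⊔ zpowers x : Subgroup G) = p * Nat.card B := by
  have h1 : B.relIndex (B ⊔ zpowers x) = B.relIndex (zpowers x) :=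
    relIndex_sup_left (zpowers x) B
  have h2 : B.relIndex (zpowers x) ∣ p := by
    have h3 : B.relIndex (zpowers x) ∣ Nat.card (zpowers x) := relIndex_dvd_card B (zpowers x)
    rw [Nat.card_zpowers] at h3
    exact h3.trans (orderOf_dvd_of_pow_eq_one hx)
  have h4 : B.relIndex (zpowers x) ≠ 1 := by
    intro h0
    exact hxB (relIndex_eq_one.mp h0 (mem_zpowers x))
  have h5 : B.relIndex (zpowers x) = p := by
    rcases (Nat.dvd_prime hp.out).mp h2 with h | h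
    · exact absurd h h4
    · exact h
  have h6 := Cfsg.Agent.Lib.Helper19.card_mul_relIndex_of_le (le_sup_left : B ≤ B ⊔ zpowers x)
  rw [h1, h5] at h6
  rw [← h6, mul_comm]

/-- depth predicate relative to `B` -/
def Dep (B : Subgroup G) : ℕ → G → Prop
  | 0, x => x ∈ B
  | (i + 1), x => x ∈ centralizer (B : Set G) ∧ ∀ g : G, Dep B i (x⁻¹ * g⁻¹ * x * g)

theorem Dep.cent {B : Subgroup G} (hB : ∀ a ∈ B, ∀ b ∈ B, a * b = b * a) :
    ∀ {i : ℕ} {x : G}, Dep B i x → x ∈ centralizer (B : Set G)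
  | 0, x, h => by
    rw [mem_centralizer_iff]; intro b hb; exact hB b hb x h
  | (_ + 1), _, h => h.1

theorem Dep.conj_inv {B : Subgroup G} (hBn : B.Normal) :
    ∀ (i : ℕ) (x : G), Dep B i x → Dep B i x⁻¹ ∧ ∀ h : G, Dep B i (h * x * h⁻¹)
  | 0, x, hx => ⟨inv_mem hx, fun h => hBn.conj_mem x hx h⟩
  | (i + 1), x, hx => by
    have hC : (centralizer (B : Set G)).Normal := Subgroup.normal_centralizer
    refine ⟨⟨inv_mem hx.1, fun g => ?_⟩, fun h => ⟨hC.conj_mem x hx.1 h, fun g => ?_⟩⟩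
    · have h1 := (Dep.conj_inv hBn i _ (hx.2 g)).1
      have h2 := (Dep.conj_inv hBn i _ h1).2 x
      have e : x * (x⁻¹ * g⁻¹ * x * g)⁻¹ * x⁻¹ = x⁻¹⁻¹ * g⁻¹ * x⁻¹ * g := by group
      rwa [e] at h2
    · have h1 := (Dep.conj_inv hBn i _ (hx.2 (h⁻¹ * g * h))).2 h
      have e : h * (x⁻¹ * (h⁻¹ * g * h)⁻¹ * x * (h⁻¹ * g * h)) * h⁻¹
          = (h * x * h⁻¹)⁻¹ * g⁻¹ * (h * x * h⁻¹) * g := by group
      rwa [e] at h1

theorem Dep.succ {B : Subgroup G} (hBn : B.Normal) (hB : ∀ a ∈ B, ∀ b ∈ B, a * b = b * a) :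
    ∀ (i : ℕ) (x : G), Dep B i x → Dep B (i + 1) x
  | 0, x, hx => ⟨Dep.cent hB (i := 0) hx, fun g => by
      show x⁻¹ * g⁻¹ * x * g ∈ B
      have h1 := hBn.conj_mem x hx g⁻¹
      have e : x⁻¹ * g⁻¹ * x * g = x⁻¹ * (g⁻¹ * x * g⁻¹⁻¹) := by group
      rw [e]; exact mul_mem (inv_mem hx) h1⟩
  | (i + 1), x, hx => ⟨hx.1, fun g => Dep.succ hBn hB i _ (hx.2 g)⟩

theorem Dep.mono {B : Subgroup G} (hBn : B.Normal) (hB : ∀ a ∈ B, ∀ b ∈ B, a * b = b * a)
    {i j : ℕ} (hij : i ≤ j) (x : G) (hx : Dep B i x) : Dep B j x := by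
  induction j, hij using Nat.le_induction with
  | base => exact hx
  | succ j _ ih => exact Dep.succ hBn hB j x ih

theorem Dep.of_ucs {B : Subgroup G} (hBn : B.Normal) :
    ∀ (i : ℕ) (x : G), x ∈ centralizer (B : Set G) → x ∈ Subgroup.upperCentralSeries G i → Dep B i x
  | 0, x, _, hx => by
    rw [Subgroup.upperCentralSeries_zero, mem_bot] at hx
    subst hx
    exact one_mem B
  | (i + 1), x, hxC, hx => by
    have hC : (centralizer (B : Set G)).Normal := Subgroup.normal_centralizer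
    refine ⟨hxC, fun g => Dep.of_ucs hBn i _ ?_ ?_⟩
    · have h1 := hC.conj_mem x hxC g⁻¹
      have e : x⁻¹ * g⁻¹ * x * g = x⁻¹ * (g⁻¹ * x * g⁻¹⁻¹) := by group
      rw [e]; exact mul_mem (inv_mem hxC) h1
    · have h1 := Subgroup.mem_upperCentralSeries_succ_iff.mp (inv_mem hx) g⁻¹
      have e : ⁅x⁻¹, g⁻¹⁆ = x⁻¹ * g⁻¹ * x * g := by
        rw [commutatorElement_def]; group
      rwa [e] at h1

/-- Alperin's lemma: a maximal normal elementary abelian subgroup (among those of bounded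
order) contains every element of order `p` of its centralizer. -/
theorem alperin [Finite G] {p : ℕ} [hp : Fact p.Prime] (hp2 : p ≠ 2) (hG : IsPGroup p G)
    {B : Subgroup G} (hBn : B.Normal) (hB : EA p B)
    (hmax : ∀ B' : Subgroup G, B'.Normal → EA p B' → Nat.card B' ≠ p * Nat.card B)
    (x : G) (hx : x ∈ centralizer (B : Set G)) (hxp : x ^ p = 1) : x ∈ B := by
  have hC : (centralizer (B : Set G)).Normal := Subgroup.normal_centralizer
  have key : ∀ (i : ℕ) (x : G), Dep B i x → x ^ p = 1 → x ∈ B := by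
    intro i
    induction i with
    | zero => intro x hx _; exact hx
    | succ i ih =>
      intro x hx hxp
      by_contra hxB
      have hxC : x ∈ centralizer (B : Set G) := hx.1
      -- sub-lemma
      have S : ∀ k : ℕ, k ≤ i → ∀ w : G, Dep B k (x⁻¹ * w⁻¹ * x * w) → x⁻¹ * w⁻¹ * x * w ∈ B := by
        intro k
        induction k with
        | zero => intro _ w hw; exact hw
        | succ k ihk =>
          intro hk w hw
          obtain ⟨y, hy⟩ : ∃ y, y = x⁻¹ * w⁻¹ * x * w := ⟨_, rfl⟩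
          rw [← hy] at hw ⊢
          have h1 : Dep B k (x⁻¹ * y⁻¹ * x * y) := by
            have h2 := (Dep.conj_inv hBn k _ (hw.2 x)).1
            have e : (y⁻¹ * x⁻¹ * y * x)⁻¹ = x⁻¹ * y⁻¹ * x * y := by group
            rwa [e] at h2
          have h3 : x⁻¹ * y⁻¹ * x * y ∈ B := ihk (by omega) y h1
          have hz : ⁅x * y, x⁻¹⁆ ∈ B := by
            have h4 := hBn.conj_mem _ h3 (x * y)
            have e : x * y * (x⁻¹ * y⁻¹ * x * y) * (x * y)⁻¹ = ⁅x * y, x⁻¹⁆ := by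
              rw [commutatorElement_def]; group
            rwa [e] at h4
          have hxy : x * y = w⁻¹ * x * w⁻¹⁻¹ := by rw [hy]; group
          have hxyC : x * y ∈ centralizer (B : Set G) := by
            rw [hxy]; exact hC.conj_mem x hxC w⁻¹
          have hxyp : (x * y) ^ p = 1 := by
            rw [hxy, conj_pow, hxp]; group
          have hyp : (x⁻¹ * (x * y)) ^ p = 1 := by
            apply pow_mul_eq_one hp2
            · rw [inv_pow, hxp, inv_one]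
            · exact hxyp
            · exact mem_centralizer_iff.mp (inv_mem hxC) _ hz
            · exact mem_centralizer_iff.mp hxyC _ hz
            · exact hB.2 _ hz
          rw [inv_mul_cancel_left] at hyp
          exact ih y (Dep.mono hBn hB.1 hk y hw) hyp
      have hcomm : ∀ g : G, x⁻¹ * g⁻¹ * x * g ∈ B := fun g => S i le_rfl g (hx.2 g)
      -- the join with `zpowers x`
      have hEA : EA p (B ⊔ zpowers x) := by
        refine EA.sup hB (EA.zpowers hxp) ?_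
        intro a ha b hb
        obtain ⟨j, rfl⟩ := mem_zpowers_iff.mp hb
        have h1 : Commute a x := (mem_centralizer_iff.mp hxC a ha)
        exact (h1.zpow_right j).eq
      have hN : (B ⊔ zpowers x).Normal := by
        constructor
        intro n hn g
        have h1 : (B ⊔ zpowers x).map (MulAut.conj g).toMonoidHom ≤ B ⊔ zpowers x := by
          rw [Subgroup.map_sup]
          refine sup_le ?_ ?_
          · rintro _ ⟨b, hb, rfl⟩
            exact mem_sup_left (hBn.conj_mem b hb g)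
          · rw [MonoidHom.map_zpowers, zpowers_le]
            have h2 := hcomm g⁻¹
            have e : (MulAut.conj g).toMonoidHom x = x * (x⁻¹ * g⁻¹⁻¹ * x * g⁻¹) := by
              simp [MulAut.conj_apply]; group
            rw [e]
            exact mul_mem (mem_sup_right (mem_zpowers x)) (mem_sup_left h2)
        have h3 := h1 (mem_map_of_mem (MulAut.conj g).toMonoidHom hn)
        simpa [MulAut.conj_apply] using h3
      exact hmax _ hN hEA (card_sup_zpowers hxp hxB)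
  have hnil : Group.IsNilpotent G := hG.isNilpotent
  obtain ⟨n, hn⟩ := hnil.nilpotent'
  exact key n x (Dep.of_ucs hBn n x hx (by rw [hn]; exact mem_top x)) hxp

theorem mem_map_conj {A : Subgroup G} (g y : G) :
    y ∈ A.map (MulAut.conj g).toMonoidHom ↔ g⁻¹ * y * g ∈ A := by
  constructor
  · rintro ⟨z, hz, rfl⟩
    have e : g⁻¹ * ((MulAut.conj g).toMonoidHom z) * g = z := by
      show g⁻¹ * (g * z * g⁻¹) * g = z
      group
    rw [e]; exact hz
  · intro h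
    refine ⟨g⁻¹ * y * g, h, ?_⟩
    show g * (g⁻¹ * y * g) * g⁻¹ = y
    group

/-- Thompson-style replacement: if the normal abelian `B` does not normalize the abelian `A`,
there is an abelian `A'` at least as large meeting `B` in a strictly larger subgroup. -/
theorem replacement [Finite G] {p : ℕ} [hp : Fact p.Prime] (hG : IsPGroup p G)
    {B A : Subgroup G} (hBn : B.Normal) (hB : ∀ a ∈ B, ∀ b ∈ B, a * b = b * a)
    (hA : ∀ a ∈ A, ∀ b ∈ A, a * b = b * a) (hBA : ¬ B ≤ normalizer (A : Set G)) :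
    ∃ A' : Subgroup G, (∀ a ∈ A', ∀ b ∈ A', a * b = b * a) ∧
      (∀ q : ℕ, (∀ a ∈ A, a ^ q = 1) → (∀ b ∈ B, b ^ q = 1) → ∀ a ∈ A', a ^ q = 1) ∧
      Nat.card A ≤ Nat.card A' ∧
      Nat.card (A ⊓ B : Subgroup G) < Nat.card (A' ⊓ B : Subgroup G) := by
  classical
  obtain ⟨M, hM⟩ : ∃ M : Subgroup G, M = B ⊓ normalizer (A : Set G) := ⟨_, rfl⟩
  obtain ⟨L, ⟨hL1, hL2⟩, hLmax⟩ : ∃ L : Subgroup G, (normalizer (A : Set G) ≤ L ∧ B ⊓ L = M) ∧
      ∀ L' : Subgroup G, normalizer (A : Set G) ≤ L' ∧ B ⊓ L' = M → Nat.card L' ≤ Nat.card L := by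
    have hne : Nonempty {L : Subgroup G // normalizer (A : Set G) ≤ L ∧ B ⊓ L = M} :=
      ⟨⟨_, le_rfl, hM.symm⟩⟩
    obtain ⟨⟨L, hL⟩, hmax⟩ := Finite.exists_max
      (fun L : {L : Subgroup G // normalizer (A : Set G) ≤ L ∧ B ⊓ L = M} => Nat.card L.1)
    exact ⟨L, hL, fun L' hL' => hmax ⟨L', hL'⟩⟩
  have hLtop : L < ⊤ := by
    rw [lt_top_iff_ne_top]
    rintro rfl
    apply hBA
    have h1 : B ⊓ ⊤ = M := hL2
    rw [inf_top_eq, hM] at h1
    exact inf_eq_left.mp h1.symm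
  have hnil : Group.IsNilpotent G := hG.isNilpotent
  have hnc : L < normalizer (L : Set G) := Group.normalizerCondition_of_isNilpotent L hLtop
  have hx : ∃ x, x ∈ B ∧ x ∈ normalizer (L : Set G) ∧ x ∉ normalizer (A : Set G) := by
    by_contra hcon
    push Not at hcon
    have h1 : B ⊓ normalizer (L : Set G) = M := by
      apply le_antisymm
      · intro y hy
        rw [hM]; exact ⟨hy.1, hcon y hy.1 hy.2⟩
      · rw [← hL2]; exact inf_le_inf_left B hnc.le
    have h2 := hLmax (normalizer (L : Set G)) ⟨hL1.trans hnc.le, h1⟩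
    have h3 := Subgroup.eq_of_le_of_card_ge hnc.le h2
    exact hnc.ne h3
  obtain ⟨x, hxB, hxL, hxA⟩ := hx
  have hALe : A ≤ L := le_normalizer.trans hL1
  have hMg : ∀ g : G, g ∈ B → g ∈ normalizer (L : Set G) → ∀ a ∈ A, a⁻¹ * g⁻¹ * a * g ∈ M := by
    intro g hgB hgL a ha
    rw [← hL2]
    refine Subgroup.mem_inf.mpr ⟨?_, ?_⟩
    · have h1 := hBn.conj_mem g⁻¹ (inv_mem hgB) a⁻¹
      rw [inv_inv] at h1
      exact mul_mem h1 hgB
    · have h1 : g⁻¹ * a * g ∈ L := by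
        have h2 := (mem_normalizer_iff.mp (inv_mem hgL) a).mp (hALe ha)
        rwa [inv_inv] at h2
      have e : a⁻¹ * g⁻¹ * a * g = a⁻¹ * (g⁻¹ * a * g) := by group
      rw [e]; exact mul_mem (inv_mem (hALe ha)) h1
  have hM1 : ∀ a ∈ A, a⁻¹ * x⁻¹ * a * x ∈ M := hMg x hxB hxL
  have hM2 : ∀ a ∈ A, a⁻¹ * x * a * x⁻¹ ∈ M := by
    intro a ha
    have h1 := hMg x⁻¹ (inv_mem hxB) (inv_mem hxL) a ha
    rwa [inv_inv] at h1
  have hMN : M ≤ normalizer (A : Set G) := by rw [hM]; exact inf_le_right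
  have hMB : M ≤ B := by rw [hM]; exact inf_le_left
  obtain ⟨A₁, hA₁⟩ : ∃ A₁ : Subgroup G, A₁ = A.map (MulAut.conj x⁻¹).toMonoidHom := ⟨_, rfl⟩
  have hmem₁ : ∀ y, y ∈ A₁ ↔ x * y * x⁻¹ ∈ A := by
    intro y; rw [hA₁, mem_map_conj, inv_inv]
  have hA₁N : A₁ ≤ normalizer (A : Set G) := by
    intro y hy
    have h1 := (hmem₁ y).mp hy
    have e : y = (x * y * x⁻¹) * ((x * y * x⁻¹)⁻¹ * x⁻¹ * (x * y * x⁻¹) * x) := by group
    rw [e]
    exact mul_mem (le_normalizer h1) (hMN (hM1 _ h1))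
  have hAN₁ : A ≤ normalizer (A₁ : Set G) := by
    apply Cfsg.Agent.Lib.Helper19.le_normalizer_of_conj_mem
    intro a ha y hy
    rw [hmem₁] at hy ⊢
    have h1 : x * a * x⁻¹ ∈ normalizer (A : Set G) := by
      have e : x * a * x⁻¹ = a * (a⁻¹ * x * a * x⁻¹) := by group
      rw [e]; exact mul_mem (le_normalizer ha) (hMN (hM2 a ha))
    have h2 := (mem_normalizer_iff.mp h1 _).mp hy
    have e : x * (a * y * a⁻¹) * x⁻¹ = x * a * x⁻¹ * (x * y * x⁻¹) * (x * a * x⁻¹)⁻¹ := by group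
    rw [e]; exact h2
  have hA₁c : ∀ a ∈ A₁, ∀ b ∈ A₁, a * b = b * a := by
    intro a ha b hb
    rw [hmem₁] at ha hb
    have h1 := hA _ ha _ hb
    have e1 : a * b = x⁻¹ * ((x * a * x⁻¹) * (x * b * x⁻¹)) * x := by group
    have e2 : b * a = x⁻¹ * ((x * b * x⁻¹) * (x * a * x⁻¹)) * x := by group
    rw [e1, e2, h1]
  have hcard₁ : Nat.card A₁ = Nat.card A := by
    rw [hA₁]; exact Subgroup.card_map_of_injective (MulAut.conj x⁻¹).injective
  obtain ⟨H, hH⟩ : ∃ H : Subgroup G, H = A ⊔ A₁ := ⟨_, rfl⟩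
  obtain ⟨D, hD⟩ : ∃ D : Subgroup G, D = H ⊓ B := ⟨_, rfl⟩
  obtain ⟨C, hC⟩ : ∃ C : Subgroup G, C = A ⊓ centralizer (D : Set G) := ⟨_, rfl⟩
  have hAH : A ≤ H := by rw [hH]; exact le_sup_left
  have hA₁H : A₁ ≤ H := by rw [hH]; exact le_sup_right
  have hDB : D ≤ B := by rw [hD]; exact inf_le_right
  have hDH : D ≤ H := by rw [hD]; exact inf_le_left
  have hCA : C ≤ A := by rw [hC]; exact inf_le_left
  have hDc : ∀ a ∈ D, ∀ b ∈ D, a * b = b * a := fun a ha b hb => hB a (hDB ha) b (hDB hb)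
  have hyD : ∀ a ∈ A, a⁻¹ * x⁻¹ * a * x ∈ D := by
    intro a ha
    rw [hD]
    refine Subgroup.mem_inf.mpr ⟨?_, hMB (hM1 a ha)⟩
    have h1 : x⁻¹ * a * x ∈ A₁ := by
      rw [hmem₁]
      have e : x * (x⁻¹ * a * x) * x⁻¹ = a := by group
      rw [e]; exact ha
    have e : a⁻¹ * x⁻¹ * a * x = a⁻¹ * (x⁻¹ * a * x) := by group
    rw [e]; exact mul_mem (hAH (inv_mem ha)) (hA₁H h1)
  have hIC : A ⊓ A₁ ≤ C := by
    intro z hz
    rw [hC]
    refine Subgroup.mem_inf.mpr ⟨hz.1, ?_⟩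
    have h1 : H ≤ centralizer ({z} : Set G) := by
      rw [hH]
      refine sup_le (fun a ha => ?_) (fun a ha => ?_)
      · rw [mem_centralizer_iff]; intro c hc
        rw [Set.mem_singleton_iff] at hc; subst hc
        exact hA c hz.1 a ha
      · rw [mem_centralizer_iff]; intro c hc
        rw [Set.mem_singleton_iff] at hc; subst hc
        exact hA₁c c hz.2 a ha
    rw [mem_centralizer_iff]
    intro d hd
    exact (mem_centralizer_iff.mp (h1 (hDH hd)) z rfl).symm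
  have hADH : A ⊔ D = H := by
    apply le_antisymm (sup_le hAH hDH)
    rw [hH]
    refine sup_le le_sup_left ?_
    intro y hy
    have h1 := (hmem₁ y).mp hy
    have e : y = (x * y * x⁻¹) * ((x * y * x⁻¹)⁻¹ * x⁻¹ * (x * y * x⁻¹) * x) := by group
    rw [e]
    exact mul_mem (mem_sup_left h1) (mem_sup_right (hyD _ h1))
  have hCD : C ⊓ D = A ⊓ D := by
    rw [hC]
    apply le_antisymm
    · exact inf_le_inf_right D inf_le_left
    · intro z hz
      refine Subgroup.mem_inf.mpr ⟨Subgroup.mem_inf.mpr ⟨hz.1, ?_⟩, hz.2⟩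
      rw [mem_centralizer_iff]; intro d hd; exact hDc d hd z hz.2
  have hAND : A ≤ normalizer (D : Set G) := by
    apply Cfsg.Agent.Lib.Helper19.le_normalizer_of_conj_mem
    intro a ha d hd
    rw [hD] at hd ⊢
    exact Subgroup.mem_inf.mpr
      ⟨mul_mem (mul_mem (hAH ha) hd.1) (inv_mem (hAH ha)), hBn.conj_mem d hd.2 a⟩
  have hCND : C ≤ normalizer (D : Set G) := hCA.trans hAND
  have f1 := card_sup_mul_card_inf hAN₁
  have f2 := card_sup_mul_card_inf hAND
  have f3 := card_sup_mul_card_inf hCND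
  rw [← hH, hcard₁] at f1
  rw [hADH] at f2
  rw [hCD] at f3
  have f4 : Nat.card (A ⊓ A₁ : Subgroup G) ≤ Nat.card C := Subgroup.card_le_of_le hIC
  have hcomm : ∀ a ∈ C ⊔ D, ∀ b ∈ C ⊔ D, a * b = b * a := by
    apply comm_of_sup (fun a ha b hb => hA a (hCA ha) b (hCA hb)) hDc
    intro c hc' d hd
    rw [hC] at hc'
    exact (mem_centralizer_iff.mp hc'.2 d hd).symm
  refine ⟨C ⊔ D, hcomm, ?_, ?_, ?_⟩
  · intro q hqA hqB
    exact pow_eq_one_of_sup hcomm (fun a ha => hqA a (hCA ha)) (fun a ha => hqB a (hDB ha))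
  · have pA : 0 < Nat.card A := Nat.card_pos
    have pD : 0 < Nat.card D := Nat.card_pos
    have pI : 0 < Nat.card (A ⊓ A₁ : Subgroup G) := Nat.card_pos
    have g1 : Nat.card (C ⊔ D : Subgroup G) * Nat.card (A ⊓ A₁ : Subgroup G)
          * (Nat.card A * Nat.card D)
        = Nat.card C * Nat.card A * (Nat.card A * Nat.card D) := by
      calc Nat.card (C ⊔ D : Subgroup G) * Nat.card (A ⊓ A₁ : Subgroup G)
            * (Nat.card A * Nat.card D)
          = (Nat.card (C ⊔ D : Subgroup G) * Nat.card (A ⊓ D : Subgroup G))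
            * (Nat.card H * Nat.card (A ⊓ A₁ : Subgroup G)) := by rw [← f2]; ring
        _ = (Nat.card C * Nat.card D) * (Nat.card A * Nat.card A) := by rw [f3, f1]
        _ = Nat.card C * Nat.card A * (Nat.card A * Nat.card D) := by ring
    have g2 : Nat.card (C ⊔ D : Subgroup G) * Nat.card (A ⊓ A₁ : Subgroup G)
        = Nat.card C * Nat.card A := Nat.eq_of_mul_eq_mul_right (Nat.mul_pos pA pD) g1
    have g3 : Nat.card A * Nat.card (A ⊓ A₁ : Subgroup G)
        ≤ Nat.card (C ⊔ D : Subgroup G) * Nat.card (A ⊓ A₁ : Subgroup G) := by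
      rw [g2, mul_comm]; exact Nat.mul_le_mul_right _ f4
    exact Nat.le_of_mul_le_mul_right g3 pI
  · by_contra hcon
    push Not at hcon
    have h1 : A ⊓ B ≤ (C ⊔ D) ⊓ B := by
      intro z hz
      refine ⟨mem_sup_right ?_, hz.2⟩
      rw [hD]; exact ⟨hAH hz.1, hz.2⟩
    have h2 := Subgroup.eq_of_le_of_card_ge h1 hcon
    have h3 : ∀ a ∈ A, a⁻¹ * x⁻¹ * a * x ∈ A := by
      intro a ha
      have h4 : a⁻¹ * x⁻¹ * a * x ∈ (C ⊔ D) ⊓ B := ⟨mem_sup_right (hyD a ha), hMB (hM1 a ha)⟩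
      rw [← h2] at h4
      exact h4.1
    have h4 : A₁ ≤ A := by
      intro y hy
      have h5 := (hmem₁ y).mp hy
      have e : y = (x * y * x⁻¹) * ((x * y * x⁻¹)⁻¹ * x⁻¹ * (x * y * x⁻¹) * x) := by group
      rw [e]; exact mul_mem h5 (h3 _ h5)
    have h6 : A₁ = A := Subgroup.eq_of_le_of_card_ge h4 hcard₁.ge
    apply hxA
    rw [mem_normalizer_iff]
    intro h
    constructor
    · intro hh
      have h7 : h ∈ A₁ := by rw [h6]; exact hh
      exact (hmem₁ h).mp h7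
    · intro hh
      have h7 : h ∈ A₁ := (hmem₁ h).mpr hh
      rwa [h6] at h7

/-- first isomorphism count for a function multiplicative on a subgroup -/
theorem hom_count {X : Subgroup G} (t : G → G) (ht : ∀ a ∈ X, t a ∈ X)
    (hmul : ∀ a ∈ X, ∀ c ∈ X, t (a * c) = t a * t c) :
    ∃ I K : Subgroup G, (∀ y, y ∈ I ↔ ∃ a ∈ X, t a = y) ∧ (∀ a, a ∈ K ↔ a ∈ X ∧ t a = 1) ∧
      Nat.card X = Nat.card I * Nat.card K := by
  let φ : ↥X →* ↥X := MonoidHom.mk' (fun a => ⟨t a, ht a a.2⟩)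
    (fun a c => Subtype.ext (hmul a a.2 c c.2))
  refine ⟨φ.range.map X.subtype, φ.ker.map X.subtype, ?_, ?_, ?_⟩
  · intro y
    constructor
    · rintro ⟨_, ⟨a, rfl⟩, rfl⟩
      exact ⟨a, a.2, rfl⟩
    · rintro ⟨a, ha, rfl⟩
      exact ⟨φ ⟨a, ha⟩, ⟨⟨a, ha⟩, rfl⟩, rfl⟩
  · intro a
    constructor
    · rintro ⟨a', ha', rfl⟩
      refine ⟨a'.2, ?_⟩
      have h1 := MonoidHom.mem_ker.mp ha'
      have h2 := congrArg Subtype.val h1
      exact h2
    · rintro ⟨ha, h1⟩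
      refine ⟨⟨a, ha⟩, ?_, rfl⟩
      exact MonoidHom.mem_ker.mpr (Subtype.ext h1)
  · rw [Subgroup.card_map_of_injective X.subtype_injective,
      Subgroup.card_map_of_injective X.subtype_injective, ← Subgroup.index_ker φ, mul_comm]
    exact (Subgroup.card_mul_index φ.ker).symm

/-- the commutator map `e ↦ b⁻¹ e⁻¹ b e` on an abelian subgroup -/
theorem psi_count {X H : Subgroup G} (b : G) (hX : ∀ a ∈ X, ∀ c ∈ X, a * c = c * a)
    (hHX : H ≤ X) (hψ : ∀ e ∈ X, b⁻¹ * e⁻¹ * b * e ∈ H) :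
    ∃ I : Subgroup G, I ≤ H ∧ (∀ y, y ∈ I ↔ ∃ e ∈ X, b⁻¹ * e⁻¹ * b * e = y) ∧
      Nat.card X = Nat.card I * Nat.card (X ⊓ centralizer ({b} : Set G) : Subgroup G) := by
  obtain ⟨I, K, hI, hK, hcard⟩ := hom_count (X := X) (fun e => b⁻¹ * e⁻¹ * b * e)
    (fun a ha => hHX (hψ a ha)) (by
      intro a ha c hc
      have h1 := hX _ (hHX (hψ a ha)) c hc
      have h2 := hX _ (hHX (hψ a ha)) _ (hHX (hψ c hc))
      show b⁻¹ * (a * c)⁻¹ * b * (a * c) = b⁻¹ * a⁻¹ * b * a * (b⁻¹ * c⁻¹ * b * c)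
      calc b⁻¹ * (a * c)⁻¹ * b * (a * c)
          = (b⁻¹ * c⁻¹ * b) * ((b⁻¹ * a⁻¹ * b * a) * c) := by group
        _ = (b⁻¹ * c⁻¹ * b) * (c * (b⁻¹ * a⁻¹ * b * a)) := by rw [h1]
        _ = (b⁻¹ * c⁻¹ * b * c) * (b⁻¹ * a⁻¹ * b * a) := by group
        _ = _ := h2.symm)
  have hKeq : K = X ⊓ centralizer ({b} : Set G) := by
    ext a
    rw [hK, Subgroup.mem_inf, mem_centralizer_iff]
    constructor
    · rintro ⟨ha, h1⟩
      refine ⟨ha, ?_⟩
      intro x hx
      rw [Set.mem_singleton_iff] at hx; subst hx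
      have h1' : x⁻¹ * a⁻¹ * x * a = 1 := h1
      calc x * a = a * x * (x⁻¹ * a⁻¹ * x * a) := by group
        _ = a * x := by rw [h1', mul_one]
    · rintro ⟨ha, h1⟩
      refine ⟨ha, ?_⟩
      have h2 := h1 b rfl
      show b⁻¹ * a⁻¹ * b * a = 1
      calc b⁻¹ * a⁻¹ * b * a = b⁻¹ * a⁻¹ * (b * a) := by group
        _ = b⁻¹ * a⁻¹ * (a * b) := by rw [h2]
        _ = 1 := by group
  refine ⟨I, ?_, hI, ?_⟩
  · intro y hy
    obtain ⟨e, he, rfl⟩ := (hI y).mp hy
    exact hψ e he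
  · rw [← hKeq]; exact hcard

/-- the commutator map `b ↦ b⁻¹ e⁻¹ b e` on an abelian subgroup -/
theorem theta_count {Y H : Subgroup G} (e : G) (hY : ∀ a ∈ Y, ∀ c ∈ Y, a * c = c * a)
    (hHY : H ≤ Y) (hθ : ∀ b ∈ Y, b⁻¹ * e⁻¹ * b * e ∈ H) :
    ∃ I : Subgroup G, I ≤ H ∧ (∀ y, y ∈ I ↔ ∃ b ∈ Y, b⁻¹ * e⁻¹ * b * e = y) ∧
      Nat.card Y = Nat.card I * Nat.card (Y ⊓ centralizer ({e} : Set G) : Subgroup G) := by
  obtain ⟨I, K, hI, hK, hcard⟩ := hom_count (X := Y) (fun b => b⁻¹ * e⁻¹ * b * e)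
    (fun a ha => hHY (hθ a ha)) (by
      intro a ha c hc
      have h1 := hY _ (inv_mem hc) _ (hHY (hθ a ha))
      show (a * c)⁻¹ * e⁻¹ * (a * c) * e = a⁻¹ * e⁻¹ * a * e * (c⁻¹ * e⁻¹ * c * e)
      calc (a * c)⁻¹ * e⁻¹ * (a * c) * e
          = c⁻¹ * (a⁻¹ * e⁻¹ * a * e) * (e⁻¹ * c * e) := by group
        _ = (a⁻¹ * e⁻¹ * a * e) * c⁻¹ * (e⁻¹ * c * e) := by rw [h1]
        _ = _ := by group)
  have hKeq : K = Y ⊓ centralizer ({e} : Set G) := by
    ext a
    rw [hK, Subgroup.mem_inf, mem_centralizer_iff]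
    constructor
    · rintro ⟨ha, h1⟩
      refine ⟨ha, ?_⟩
      intro x hx
      rw [Set.mem_singleton_iff] at hx; subst hx
      have h1' : a⁻¹ * x⁻¹ * a * x = 1 := h1
      calc x * a = a * x * (a⁻¹ * x⁻¹ * a * x)⁻¹ := by group
        _ = a * x := by rw [h1', inv_one, mul_one]
    · rintro ⟨ha, h1⟩
      refine ⟨ha, ?_⟩
      have h2 := h1 e rfl
      show a⁻¹ * e⁻¹ * a * e = 1
      calc a⁻¹ * e⁻¹ * a * e = a⁻¹ * e⁻¹ * (a * e) := by group
        _ = a⁻¹ * e⁻¹ * (e * a) := by rw [h2]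
        _ = 1 := by group
  refine ⟨I, ?_, hI, ?_⟩
  · intro y hy
    obtain ⟨b, hb, rfl⟩ := (hI y).mp hy
    exact hθ b hb
  · rw [← hKeq]; exact hcard

theorem comm_sup {H K : Subgroup G} {e : G} (h1 : ∀ a ∈ H, a * e = e * a)
    (h2 : ∀ a ∈ K, a * e = e * a) : ∀ a ∈ H ⊔ K, a * e = e * a := by
  have h3 : H ⊔ K ≤ centralizer ({e} : Set G) := by
    refine sup_le (fun a ha => ?_) (fun a ha => ?_)
    · rw [mem_centralizer_iff]; intro x hx
      rw [Set.mem_singleton_iff] at hx; subst hx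
      exact (h1 a ha).symm
    · rw [mem_centralizer_iff]; intro x hx
      rw [Set.mem_singleton_iff] at hx; subst hx
      exact (h2 a ha).symm
  intro a ha
  exact (mem_centralizer_iff.mp (h3 ha) e rfl).symm

theorem comm_zpowers {b e : G} (h : b * e = e * b) : ∀ a ∈ zpowers b, a * e = e * a := by
  intro a ha
  obtain ⟨i, rfl⟩ := mem_zpowers_iff.mp ha
  exact ((show Commute b e from h).zpow_left i).eq

/-- the configuration: `B` normal elementary abelian of order at most `p ^ 3` containing all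
elements of order `p` of its centralizer, normalizing an elementary abelian `E` of order at
least `p ^ 4` -/
structure Cfg (p : ℕ) (B E : Subgroup G) : Prop where
  hBn : B.Normal
  hB : EA p B
  hBcard : Nat.card B ≤ p ^ 3
  halp : ∀ x ∈ centralizer (B : Set G), x ^ p = 1 → x ∈ B
  hE : EA p E
  hEcard : p ^ 4 ≤ Nat.card E
  hBE : B ≤ normalizer (E : Set G)

theorem Cfg.psi_mem {p : ℕ} {B E : Subgroup G} (c : Cfg p B E) :
    ∀ b ∈ B, ∀ e ∈ E, b⁻¹ * e⁻¹ * b * e ∈ E ⊓ B := by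
  intro b hb e he
  refine Subgroup.mem_inf.mpr ⟨?_, ?_⟩
  · have h1 := (mem_normalizer_iff.mp (c.hBE (inv_mem hb)) e⁻¹).mp (inv_mem he)
    rw [inv_inv] at h1
    exact mul_mem h1 he
  · have h1 := c.hBn.conj_mem b hb e⁻¹
    rw [inv_inv] at h1
    have e1 : b⁻¹ * e⁻¹ * b * e = b⁻¹ * (e⁻¹ * b * e) := by group
    rw [e1]; exact mul_mem (inv_mem hb) h1

theorem Cfg.main [Finite G] {p : ℕ} [hp : Fact p.Prime] (hG : IsPGroup p G)
    {B E : Subgroup G} (c : Cfg p B E) :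
    Nat.card (E ⊓ B : Subgroup G) = p ^ 2 ∧ Nat.card B = p ^ 3 ∧ Nat.card E = p ^ 4 ∧
    (∃ b ∈ B, b ∉ E) ∧
    ∀ b ∈ B, b ∉ E → ((E ⊓ B) ⊔ zpowers b = B ∧
      ∀ h ∈ E ⊓ B, ∃ e ∈ E, b⁻¹ * e⁻¹ * b * e = h) := by
  have hψ := c.psi_mem
  obtain ⟨H, hH⟩ : ∃ H : Subgroup G, H = E ⊓ B := ⟨_, rfl⟩
  rw [← hH] at hψ ⊢
  have hHE : H ≤ E := by rw [hH]; exact inf_le_left
  have hHB : H ≤ B := by rw [hH]; exact inf_le_right
  have pp : 0 < p := hp.out.pos
  have p34 : p ^ 3 < p ^ 4 := Nat.pow_lt_pow_right hp.out.one_lt (by norm_num)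
  have hCE : ∀ e ∈ E, e ∈ centralizer (B : Set G) → e ∈ H := by
    intro e he hc
    rw [hH]
    exact Subgroup.mem_inf.mpr ⟨he, c.halp e hc (c.hE.2 e he)⟩
  have hBnE : ¬ B ≤ E := by
    intro hle
    have h1 : E ≤ B := fun e he =>
      hHB (hCE e he (mem_centralizer_iff.mpr fun b hb => c.hE.1 b (hle hb) e he))
    have h2 := Subgroup.card_le_of_le h1
    have h3 := c.hEcard
    have h4 := c.hBcard
    omega
  have hlt : ∀ b ∈ B, b ∉ E → H < H ⊔ zpowers b := by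
    intro b hb hbE
    refine lt_of_le_of_ne le_sup_left ?_
    intro heq
    apply hbE
    have h1 : b ∈ H := by rw [heq]; exact mem_sup_right (mem_zpowers b)
    exact hHE h1
  have hle : ∀ b ∈ B, H ⊔ zpowers b ≤ B := fun b hb =>
    sup_le hHB (by rw [zpowers_le]; exact hb)
  have hHbot : H ≠ ⊥ := by
    intro h0
    have h1 : ∀ e ∈ E, e ∈ centralizer (B : Set G) := by
      intro e he
      rw [mem_centralizer_iff]; intro b hb
      have h2 := hψ b hb e he
      rw [h0, mem_bot] at h2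
      calc b * e = e * b * (b⁻¹ * e⁻¹ * b * e) := by group
        _ = e * b := by rw [h2, mul_one]
    have h2 : E ≤ H := fun e he => hCE e he (h1 e he)
    have h3 := Subgroup.card_le_of_le h2
    rw [h0, Subgroup.card_bot] at h3
    have h4 : 1 < p ^ 4 := Nat.one_lt_pow (by norm_num) hp.out.one_lt
    have h5 := c.hEcard
    omega
  have hHp : p ≤ Nat.card H := by
    have h1 := p_mul_card_le_of_lt hG (bot_lt_iff_ne_bot.mpr hHbot)
    rwa [Subgroup.card_bot, mul_one] at h1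
  have hall : ∀ b ∈ B, b ∉ E → H ⊔ zpowers b = B := by
    intro b hb hbE
    by_contra hne
    have hlt2 : H ⊔ zpowers b < B := lt_of_le_of_ne (hle b hb) hne
    have c1 := p_mul_card_le_of_lt hG (hlt b hb hbE)
    have c2 := p_mul_card_le_of_lt hG hlt2
    obtain ⟨b₁, hb₁, hb₁n⟩ := SetLike.exists_of_lt hlt2
    have hlt3 : H ⊔ zpowers b < H ⊔ zpowers b ⊔ zpowers b₁ := by
      refine lt_of_le_of_ne le_sup_left ?_
      intro heq
      apply hb₁n
      rw [heq]; exact mem_sup_right (mem_zpowers b₁)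
    have c3 := p_mul_card_le_of_lt hG hlt3
    have hL : H ⊔ zpowers b ⊔ zpowers b₁ ≤ B :=
      sup_le (hle b hb) (by rw [zpowers_le]; exact hb₁)
    have hLB : H ⊔ zpowers b ⊔ zpowers b₁ = B := by
      apply Subgroup.eq_of_le_of_card_ge hL
      calc Nat.card B ≤ p ^ 3 := c.hBcard
        _ = p * (p * p) := by ring
        _ ≤ p * (p * Nat.card H) := Nat.mul_le_mul_left _ (Nat.mul_le_mul_left _ hHp)
        _ ≤ p * Nat.card (H ⊔ zpowers b : Subgroup G) := Nat.mul_le_mul_left _ c1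
        _ ≤ Nat.card (H ⊔ zpowers b ⊔ zpowers b₁ : Subgroup G) := c3
    have hHle : Nat.card H ≤ p := by
      have h1 : p * p * Nat.card H ≤ p * p * p := by
        calc p * p * Nat.card H = p * (p * Nat.card H) := by ring
          _ ≤ p * Nat.card (H ⊔ zpowers b : Subgroup G) := Nat.mul_le_mul_left _ c1
          _ ≤ Nat.card B := c2
          _ ≤ p ^ 3 := c.hBcard
          _ = p * p * p := by ring
      exact Nat.le_of_mul_le_mul_left h1 (Nat.mul_pos pp pp)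
    obtain ⟨K₀, hK₀⟩ : ∃ K₀ : Subgroup G, K₀ = E ⊓ centralizer ({b} : Set G) := ⟨_, rfl⟩
    have hK₀E : K₀ ≤ E := by rw [hK₀]; exact inf_le_left
    have hHK₀ : H ≤ K₀ := by
      intro h hh
      rw [hK₀]
      refine Subgroup.mem_inf.mpr ⟨hHE hh, ?_⟩
      rw [mem_centralizer_iff]; intro x hx
      rw [Set.mem_singleton_iff] at hx; subst hx
      exact c.hB.1 x hb h (hHB hh)
    obtain ⟨I₀, hI₀H, -, hcard₀⟩ := psi_count b c.hE.1 hHE (hψ b hb)
    obtain ⟨I₁, hI₁H, -, hcard₁⟩ := psi_count (X := K₀) b₁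
      (fun a ha d hd => c.hE.1 a (hK₀E ha) d (hK₀E hd)) hHK₀
      (fun e he => hψ b₁ hb₁ e (hK₀E he))
    have hK₁ : K₀ ⊓ centralizer ({b₁} : Set G) = H := by
      apply le_antisymm
      · intro e he
        have heK : e ∈ K₀ := he.1
        have heE : e ∈ E := hK₀E heK
        rw [hK₀] at heK
        apply hCE e heE
        rw [mem_centralizer_iff, ← hLB]
        refine comm_sup (comm_sup (fun h hh => c.hE.1 h (hHE hh) e heE) (comm_zpowers ?_))
          (comm_zpowers ?_)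
        · exact mem_centralizer_iff.mp heK.2 b rfl
        · exact mem_centralizer_iff.mp he.2 b₁ rfl
      · intro h hh
        refine Subgroup.mem_inf.mpr ⟨hHK₀ hh, ?_⟩
        rw [mem_centralizer_iff]; intro x hx
        rw [Set.mem_singleton_iff] at hx; subst hx
        exact c.hB.1 x hb₁ h (hHB hh)
    rw [hK₁] at hcard₁
    rw [← hK₀, hcard₁] at hcard₀
    have h1 : Nat.card E ≤ p ^ 3 := by
      calc Nat.card E = Nat.card I₀ * (Nat.card I₁ * Nat.card H) := hcard₀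
        _ ≤ p * (p * p) := Nat.mul_le_mul ((Subgroup.card_le_of_le hI₀H).trans hHle)
            (Nat.mul_le_mul ((Subgroup.card_le_of_le hI₁H).trans hHle) hHle)
        _ = p ^ 3 := by ring
    have h2 := c.hEcard
    omega
  have hgen : ∀ b ∈ B, b ∉ E → (Nat.card H = p ^ 2 ∧ Nat.card B = p ^ 3 ∧ Nat.card E = p ^ 4 ∧
      ∀ h ∈ H, ∃ e ∈ E, b⁻¹ * e⁻¹ * b * e = h) := by
    intro b hb hbE
    have hgen := hall b hb hbE
    obtain ⟨I, hIH, hI, hcard⟩ := psi_count b c.hE.1 hHE (hψ b hb)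
    have hK : E ⊓ centralizer ({b} : Set G) = H := by
      apply le_antisymm
      · intro e he
        apply hCE e he.1
        rw [mem_centralizer_iff, ← hgen]
        refine comm_sup (fun h hh => c.hE.1 h (hHE hh) e he.1) (comm_zpowers ?_)
        exact mem_centralizer_iff.mp he.2 b rfl
      · intro h hh
        refine Subgroup.mem_inf.mpr ⟨hHE hh, ?_⟩
        rw [mem_centralizer_iff]; intro x hx
        rw [Set.mem_singleton_iff] at hx; subst hx
        exact c.hB.1 x hb h (hHB hh)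
    rw [hK] at hcard
    have h1 : p * Nat.card H ≤ Nat.card B := by
      have h0 := p_mul_card_le_of_lt hG (hlt b hb hbE)
      rwa [hgen] at h0
    have h2 : Nat.card I ≤ Nat.card H := Subgroup.card_le_of_le hIH
    have h3 : Nat.card H ≤ p ^ 2 := by
      have h0 : p * Nat.card H ≤ p * p ^ 2 := by
        calc p * Nat.card H ≤ Nat.card B := h1
          _ ≤ p ^ 3 := c.hBcard
          _ = p * p ^ 2 := by ring
      exact Nat.le_of_mul_le_mul_left h0 pp
    have h4 : Nat.card H = p ^ 2 := by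
      by_contra hne
      have hlt' : Nat.card H < p ^ 2 := lt_of_le_of_ne h3 hne
      have h5 : Nat.card E < p ^ 4 := by
        calc Nat.card E = Nat.card I * Nat.card H := hcard
          _ ≤ Nat.card H * Nat.card H := Nat.mul_le_mul_right _ h2
          _ < p ^ 2 * p ^ 2 := Nat.mul_lt_mul'' hlt' hlt'
          _ = p ^ 4 := by ring
      have h6 := c.hEcard
      omega
    have h5 : Nat.card I = Nat.card H := by
      by_contra hne
      have hlt' : Nat.card I < Nat.card H := lt_of_le_of_ne h2 hne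
      have h5 : Nat.card E < p ^ 4 := by
        calc Nat.card E = Nat.card I * Nat.card H := hcard
          _ < Nat.card H * Nat.card H := Nat.mul_lt_mul_of_pos_right hlt' Nat.card_pos
          _ = p ^ 4 := by rw [h4]; ring
      have h6 := c.hEcard
      omega
    have h6 : I = H := Subgroup.eq_of_le_of_card_ge hIH h5.ge
    refine ⟨h4, ?_, ?_, ?_⟩
    · apply le_antisymm c.hBcard
      calc p ^ 3 = p * p ^ 2 := by ring
        _ = p * Nat.card H := by rw [h4]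
        _ ≤ Nat.card B := h1
    · rw [hcard, h5, h4]; ring
    · intro h hh
      rw [← h6] at hh
      exact (hI h).mp hh
  obtain ⟨b₀, hb₀, hb₀E⟩ := SetLike.not_le_iff_exists.mp hBnE
  obtain ⟨g1, g2, g3, -⟩ := hgen b₀ hb₀ hb₀E
  exact ⟨g1, g2, g3, ⟨b₀, hb₀, hb₀E⟩, fun b hb hbE => ⟨hall b hb hbE, (hgen b hb hbE).2.2.2⟩⟩

/-- two distinct members of the configuration normalizing each other cannot exist -/
theorem Cfg.absurd [Finite G] {p : ℕ} [hp : Fact p.Prime] (hp2 : p ≠ 2) (hG : IsPGroup p G)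
    {B E F : Subgroup G} (cE : Cfg p B E) (cF : Cfg p B F)
    (hFE : F ≤ normalizer (E : Set G)) (hEF : E ≤ normalizer (F : Set G)) (hne : F ≠ E) :
    False := by
  obtain ⟨hHE2, hB3, hE4, ⟨b₀, hb₀, hb₀E⟩, hEall⟩ := cE.main hG
  obtain ⟨hHF2, -, hF4, -, hFall⟩ := cF.main hG
  have hHeq : F ⊓ B = E ⊓ B := by
    by_contra hne'
    have h1 : ¬ (E ⊓ B ≤ F ⊓ B) := fun hle =>
      hne' (Subgroup.eq_of_le_of_card_ge hle (by rw [hHE2, hHF2])).symm
    obtain ⟨b, hbEB, hbFB⟩ := SetLike.not_le_iff_exists.mp h1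
    have hbB : b ∈ B := (Subgroup.mem_inf.mp hbEB).2
    have hbE : b ∈ E := (Subgroup.mem_inf.mp hbEB).1
    have hbF : b ∉ F := fun h => hbFB (Subgroup.mem_inf.mpr ⟨h, hbB⟩)
    have h2 : F ⊓ B ≤ E ⊓ B := by
      intro h hh
      obtain ⟨f, hf, rfl⟩ := (hFall b hbB hbF).2 h hh
      refine Subgroup.mem_inf.mpr ⟨?_, (Subgroup.mem_inf.mp hh).2⟩
      have h3 := (mem_normalizer_iff.mp (hFE (inv_mem hf)) b).mp hbE
      rw [inv_inv] at h3
      have e1 : b⁻¹ * f⁻¹ * b * f = b⁻¹ * (f⁻¹ * b * f) := by group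
      rw [e1]; exact mul_mem (inv_mem hbE) h3
    exact hne' (Subgroup.eq_of_le_of_card_ge h2 (by rw [hHE2, hHF2]))
  have hBF : ∀ k ∈ B, k ∉ E → k ∉ F := by
    intro k hk hkE hkF
    have h1 : k ∈ F ⊓ B := Subgroup.mem_inf.mpr ⟨hkF, hk⟩
    rw [hHeq] at h1
    exact hkE (Subgroup.mem_inf.mp h1).1
  have hHF : ∀ h ∈ E ⊓ B, h ∈ F := by
    intro h hh
    rw [← hHeq] at hh
    exact (Subgroup.mem_inf.mp hh).1
  have hdec : ∀ f' ∈ F, ∃ k' ∈ B, ∃ e' ∈ E, f' = k' * e' := by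
    intro f' hf'
    have hψF : b₀⁻¹ * f'⁻¹ * b₀ * f' ∈ F ⊓ B := cF.psi_mem b₀ hb₀ f' hf'
    rw [hHeq] at hψF
    obtain ⟨e', he', heq⟩ := (hEall b₀ hb₀ hb₀E).2 _ hψF
    refine ⟨f' * e'⁻¹, ?_, e', he', by group⟩
    apply cE.halp
    · rw [mem_centralizer_iff, ← (hEall b₀ hb₀ hb₀E).1]
      refine comm_sup ?_ (comm_zpowers ?_)
      · intro h hh
        have hhF : h ∈ F := hHF h hh
        have hhE : h ∈ E := (Subgroup.mem_inf.mp hh).1
        have c1 : h * f' = f' * h := cF.hE.1 h hhF f' hf'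
        have c2 : h * e'⁻¹ = e'⁻¹ * h := cE.hE.1 h hhE _ (inv_mem he')
        calc h * (f' * e'⁻¹) = (h * f') * e'⁻¹ := by group
          _ = f' * (h * e'⁻¹) := by rw [c1]; group
          _ = f' * e'⁻¹ * h := by rw [c2]; group
      · have h1 : e'⁻¹ * b₀ * e' = f'⁻¹ * b₀ * f' := by
          have h2 := congrArg (fun t => b₀ * t) heq
          simpa [mul_assoc] using h2
        calc b₀ * (f' * e'⁻¹) = f' * (f'⁻¹ * b₀ * f') * e'⁻¹ := by group
          _ = f' * (e'⁻¹ * b₀ * e') * e'⁻¹ := by rw [h1]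
          _ = f' * e'⁻¹ * b₀ := by group
    · have hzF : ⁅e'⁻¹, f'⁆ ∈ F := by
        rw [commutatorElement_def, inv_inv]
        have h1 := (mem_normalizer_iff.mp (hEF (inv_mem he')) f').mp hf'
        rw [inv_inv] at h1
        exact mul_mem h1 (inv_mem hf')
      have hzE : ⁅e'⁻¹, f'⁆ ∈ E := by
        rw [commutatorElement_def, inv_inv]
        have h1 := (mem_normalizer_iff.mp (hFE hf') e').mp he'
        have e1 : e'⁻¹ * f' * e' * f'⁻¹ = e'⁻¹ * (f' * e' * f'⁻¹) := by group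
        rw [e1]; exact mul_mem (inv_mem he') h1
      apply pow_mul_eq_one hp2 f' e'⁻¹ (cF.hE.2 f' hf') (by rw [inv_pow, cE.hE.2 e' he', inv_one])
      · exact cF.hE.1 _ hzF f' hf'
      · exact cE.hE.1 _ hzE _ (inv_mem he')
      · exact cE.hE.2 _ hzE
  have h1 : ¬ F ≤ E := fun hle => hne (Subgroup.eq_of_le_of_card_ge hle (by rw [hE4, hF4]))
  obtain ⟨f, hf, hfE⟩ := SetLike.not_le_iff_exists.mp h1
  obtain ⟨k, hk, e, he, rfl⟩ := hdec f hf
  have hkE : k ∉ E := fun h => hfE (mul_mem h he)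
  have hkF : k ∉ F := hBF k hk hkE
  obtain ⟨I, hIH, hI, hcard⟩ := theta_count (Y := B) (H := E ⊓ B) e cE.hB.1 inf_le_right
    (fun b hb => cE.psi_mem b hb e he)
  have hHI : E ⊓ B ≤ I := by
    intro h hh
    rw [← hHeq] at hh
    obtain ⟨f', hf', rfl⟩ := (hFall k hk hkF).2 h hh
    obtain ⟨k', hk', e', he', rfl⟩ := hdec f' hf'
    rw [hI]
    refine ⟨k', hk', ?_⟩
    have hkk : k * k' = k' * k := cE.hB.1 k hk k' hk'
    have hee : e * e' = e' * e := cE.hE.1 e he e' he'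
    have hff : k * e * (k' * e') = k' * e' * (k * e) := cF.hE.1 _ hf _ hf'
    have hc1 : (e⁻¹ * k'⁻¹ * e * k') * e' = e' * (e⁻¹ * k'⁻¹ * e * k') := by
      have h2 := (Subgroup.mem_inf.mp (cE.psi_mem k' hk' e he)).1
      have h3 := inv_mem h2
      have e1 : (k'⁻¹ * e⁻¹ * k' * e)⁻¹ = e⁻¹ * k'⁻¹ * e * k' := by group
      rw [e1] at h3
      exact cE.hE.1 _ h3 e' he'
    have hc2 : (e'⁻¹ * k⁻¹ * e' * k) * e = e * (e'⁻¹ * k⁻¹ * e' * k) := by
      have h2 := (Subgroup.mem_inf.mp (cE.psi_mem k hk e' he')).1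
      have h3 := inv_mem h2
      have e1 : (k⁻¹ * e'⁻¹ * k * e')⁻¹ = e'⁻¹ * k⁻¹ * e' * k := by group
      rw [e1] at h3
      exact cE.hE.1 _ h3 e he
    have hcc : e⁻¹ * k'⁻¹ * e * k' = e'⁻¹ * k⁻¹ * e' * k := by
      apply mul_left_cancel (a := k * k' * e * e')
      calc k * k' * e * e' * (e⁻¹ * k'⁻¹ * e * k')
          = k * k' * e * (e' * (e⁻¹ * k'⁻¹ * e * k')) := by group
        _ = k * k' * e * ((e⁻¹ * k'⁻¹ * e * k') * e') := by rw [hc1]
        _ = k * e * (k' * e') := by group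
        _ = k' * e' * (k * e) := hff
        _ = k' * k * e' * ((e'⁻¹ * k⁻¹ * e' * k) * e) := by group
        _ = k' * k * e' * (e * (e'⁻¹ * k⁻¹ * e' * k)) := by rw [hc2]
        _ = (k' * k) * (e' * e) * (e'⁻¹ * k⁻¹ * e' * k) := by group
        _ = (k * k') * (e * e') * (e'⁻¹ * k⁻¹ * e' * k) := by rw [hkk, hee]
        _ = k * k' * e * e' * (e'⁻¹ * k⁻¹ * e' * k) := by group
    calc k'⁻¹ * e⁻¹ * k' * e = (e⁻¹ * k'⁻¹ * e * k')⁻¹ := by group
      _ = (e'⁻¹ * k⁻¹ * e' * k)⁻¹ := by rw [hcc]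
      _ = k⁻¹ * e'⁻¹ * (k'⁻¹ * (k' * k)) * e' := by group
      _ = k⁻¹ * e'⁻¹ * (k'⁻¹ * (k * k')) * e' := by rw [hkk]
      _ = k⁻¹ * (k' * e')⁻¹ * k * (k' * e') := by group
  have hHC : E ⊓ B ≤ B ⊓ centralizer ({e} : Set G) := by
    intro h hh
    refine Subgroup.mem_inf.mpr ⟨(Subgroup.mem_inf.mp hh).2, ?_⟩
    rw [mem_centralizer_iff]; intro x hx
    rw [Set.mem_singleton_iff] at hx; subst hx
    exact cE.hE.1 x he h (Subgroup.mem_inf.mp hh).1
  have h2 : p ^ 4 ≤ Nat.card B := by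
    calc p ^ 4 = p ^ 2 * p ^ 2 := by ring
      _ = Nat.card (E ⊓ B : Subgroup G) * Nat.card (E ⊓ B : Subgroup G) := by rw [hHE2]
      _ ≤ Nat.card I * Nat.card (B ⊓ centralizer ({e} : Set G) : Subgroup G) :=
          Nat.mul_le_mul (Subgroup.card_le_of_le hHI) (Subgroup.card_le_of_le hHC)
      _ = Nat.card B := hcard.symm
  have p34 : p ^ 3 < p ^ 4 := Nat.pow_lt_pow_right hp.out.one_lt (by norm_num)
  omega

/-- For odd `p`, a finite `p`-group with an elementary abelian subgroup of order at least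
`p ^ 4` has a normal elementary abelian subgroup of order exactly `p ^ 4`. -/
theorem exists_normal_EA [Finite G] {p : ℕ} [hp : Fact p.Prime] (hp2 : p ≠ 2)
    (hG : IsPGroup p G) {E : Subgroup G} (hE : EA p E) (hE4 : p ^ 4 ≤ Nat.card E) :
    ∃ V : Subgroup G, V.Normal ∧ EA p V ∧ Nat.card V = p ^ 4 := by
  classical
  have pp : 0 < p := hp.out.pos
  have p34 : p ^ 3 < p ^ 4 := Nat.pow_lt_pow_right hp.out.one_lt (by norm_num)
  have hne : Nonempty {B : Subgroup G // B.Normal ∧ EA p B ∧ Nat.card B ≤ p ^ 4} :=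
    ⟨⟨⊥, Subgroup.normal_bot, ⟨fun a ha b hb => by
        rw [mem_bot] at ha hb; rw [ha, hb], fun a ha => by
        rw [mem_bot] at ha; rw [ha, one_pow]⟩, by
        rw [Subgroup.card_bot]; exact Nat.one_le_pow _ _ pp⟩⟩
  obtain ⟨⟨B, hBn, hB, hB4⟩, hBmax⟩ := Finite.exists_max
    (fun B : {B : Subgroup G // B.Normal ∧ EA p B ∧ Nat.card B ≤ p ^ 4} => Nat.card B.1)
  by_cases hB4' : Nat.card B = p ^ 4
  · exact ⟨B, hBn, hB, hB4'⟩
  exfalso
  have hB3 : Nat.card B ≤ p ^ 3 := by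
    obtain ⟨n, hn⟩ := IsPGroup.iff_card.mp (hG.to_subgroup B)
    rw [hn] at hB4 hB4' ⊢
    have h1 : n < 4 := by
      by_contra h
      push Not at h
      exact hB4' (le_antisymm hB4 (Nat.pow_le_pow_right pp h))
    exact Nat.pow_le_pow_right pp (by omega)
  have halp : ∀ x ∈ centralizer (B : Set G), x ^ p = 1 → x ∈ B := by
    apply alperin hp2 hG hBn hB
    intro B' hB'n hB' hcard
    have h1 : Nat.card B' ≤ p ^ 4 := by
      rw [hcard]
      calc p * Nat.card B ≤ p * p ^ 3 := Nat.mul_le_mul_left _ hB3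
        _ = p ^ 4 := by ring
    have h3 : Nat.card B' ≤ Nat.card B := hBmax ⟨B', hB'n, hB', h1⟩
    rw [hcard] at h3
    have h4 : 0 < Nat.card B := Nat.card_pos
    have h5 : 2 ≤ p := hp.out.two_le
    nlinarith
  have hne2 : Nonempty {E₀ : Subgroup G // EA p E₀ ∧ p ^ 4 ≤ Nat.card E₀} := ⟨⟨E, hE, hE4⟩⟩
  obtain ⟨⟨E₀, hE₀, hE₀4⟩, hEmax⟩ := Finite.exists_max
    (fun E₀ : {E₀ : Subgroup G // EA p E₀ ∧ p ^ 4 ≤ Nat.card E₀} =>
      Nat.card (E₀.1 ⊓ B : Subgroup G))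
  have hBE₀ : B ≤ normalizer (E₀ : Set G) := by
    by_contra hcon
    obtain ⟨A', hA'c, hA'p, hA'card, hA'lt⟩ := replacement hG hBn hB.1 hE₀.1 hcon
    have h2 : Nat.card (A' ⊓ B : Subgroup G) ≤ Nat.card (E₀ ⊓ B : Subgroup G) :=
      hEmax ⟨A', ⟨hA'c, hA'p p hE₀.2 hB.2⟩, hE₀4.trans hA'card⟩
    omega
  have c₀ : Cfg p B E₀ := ⟨hBn, hB, hB3, halp, hE₀, hE₀4, hBE₀⟩
  by_cases hn : E₀.Normal
  · obtain ⟨-, -, h4, -, -⟩ := c₀.main hG
    have h2 : Nat.card E₀ ≤ Nat.card B := hBmax ⟨E₀, hn, hE₀, h4.le⟩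
    omega
  · have hNtop : normalizer (E₀ : Set G) < ⊤ := by
      rw [lt_top_iff_ne_top]
      intro h
      exact hn (Subgroup.normalizer_eq_top_iff.mp h)
    have hnil : Group.IsNilpotent G := hG.isNilpotent
    have hnc := Group.normalizerCondition_of_isNilpotent _ hNtop
    obtain ⟨g, hgNN, hgN⟩ := SetLike.exists_of_lt hnc
    obtain ⟨F, hF⟩ : ∃ F : Subgroup G, F = E₀.map (MulAut.conj g).toMonoidHom := ⟨_, rfl⟩
    have hmemF : ∀ y, y ∈ F ↔ g⁻¹ * y * g ∈ E₀ := by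
      intro y; rw [hF, mem_map_conj]
    have hFEA : EA p F := by rw [hF]; exact hE₀.map _
    have hFcard : Nat.card F = Nat.card E₀ := by
      rw [hF]; exact Subgroup.card_map_of_injective (MulAut.conj g).injective
    have hFN : F ≤ normalizer (E₀ : Set G) := by
      intro y hy
      have h1 := (hmemF y).mp hy
      have h2 := (mem_normalizer_iff.mp hgNN _).mp (le_normalizer h1)
      have e1 : g * (g⁻¹ * y * g) * g⁻¹ = y := by group
      rwa [e1] at h2
    have hconjN : ∀ n ∈ normalizer (E₀ : Set G), g⁻¹ * n * g ∈ normalizer (E₀ : Set G) := by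
      intro n hn'
      have h2 := (mem_normalizer_iff.mp (inv_mem hgNN) n).mp hn'
      rwa [inv_inv] at h2
    have hNF : normalizer (E₀ : Set G) ≤ normalizer (F : Set G) := by
      apply Cfsg.Agent.Lib.Helper19.le_normalizer_of_conj_mem
      intro n hn' y hy
      rw [hmemF] at hy ⊢
      have h1 := hconjN n hn'
      have h2 := (mem_normalizer_iff.mp h1 _).mp hy
      have e1 : g⁻¹ * (n * y * n⁻¹) * g = g⁻¹ * n * g * (g⁻¹ * y * g) * (g⁻¹ * n * g)⁻¹ := by
        group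
      rw [e1]; exact h2
    have c₁ : Cfg p B F :=
      ⟨hBn, hB, hB3, halp, hFEA, by rw [hFcard]; exact hE₀4, hBE₀.trans hNF⟩
    refine Cfg.absurd hp2 hG c₀ c₁ hFN (le_normalizer.trans hNF) ?_
    intro hFE
    apply hgN
    rw [mem_normalizer_iff]
    intro h
    constructor
    · intro hh
      have h1 : g * h * g⁻¹ ∈ F := by
        rw [hmemF]
        have e1 : g⁻¹ * (g * h * g⁻¹) * g = h := by group
        rw [e1]; exact hh
      rw [hFE] at h1
      exact h1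
    · intro hh
      have h0 : g * h * g⁻¹ ∈ F := by rw [hFE]; exact hh
      have h1 := (hmemF _).mp h0
      have e1 : g⁻¹ * (g * h * g⁻¹) * g = h := by group
      rw [e1] at h1
      exact h1

theorem EA_iff {p : ℕ} {A : Subgroup G} :
    EA p A ↔ (IsMulCommutative A ∧ ∀ a ∈ A, a ^ p = 1) := by
  unfold EA
  refine and_congr ?_ Iff.rfl
  rw [← le_centralizer_iff_isMulCommutative]
  constructor
  · intro h a ha
    rw [mem_centralizer_iff]; intro b hb; exact h b hb a ha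
  · intro h a ha b hb
    exact mem_centralizer_iff.mp (h hb) a ha

/-- the commutator map `x ↦ f x f⁻¹ x⁻¹` -/
def nu (f x : G) : G := f * x * f⁻¹ * x⁻¹

theorem comm_identity (a b d : G) (hab : Commute a b) (had : Commute a d) (hbd : Commute b d)
    (hb : b ^ 3 = 1) (hd : d ^ 3 = 1) : a * d⁻¹ * b * d⁻¹ * (b * a⁻¹ * b * d⁻¹) = 1 := by
  have h1 : Commute a (d⁻¹ * b * d⁻¹ * b) :=
    ((had.inv_right.mul_right hab).mul_right had.inv_right).mul_right hab
  have h2 : Commute b d⁻¹ := hbd.inv_right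
  calc a * d⁻¹ * b * d⁻¹ * (b * a⁻¹ * b * d⁻¹)
      = a * (d⁻¹ * b * d⁻¹ * b) * a⁻¹ * (b * d⁻¹) := by group
    _ = (d⁻¹ * b * d⁻¹ * b) * (b * d⁻¹) := by rw [h1.eq, mul_inv_cancel_right]
    _ = (d⁻¹ * b) * (d⁻¹ * b) * (b * d⁻¹) := by group
    _ = (b * d⁻¹) * (b * d⁻¹) * (b * d⁻¹) := by rw [← h2.eq]
    _ = (b * d⁻¹) ^ 3 := by rw [pow_three']
    _ = b ^ 3 * d⁻¹ ^ 3 := h2.mul_pow 3
    _ = 1 := by rw [hb, inv_pow, hd, inv_one, mul_one]

theorem nu_cube {V : Subgroup G} (hVn : V.Normal) (hV : EA 3 V) {f : G} (hf : f ^ 3 = 1)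
    {v : G} (hv : v ∈ V) : nu f (nu f (nu f v)) = 1 := by
  have hb : f * v * f⁻¹ ∈ V := hVn.conj_mem v hv f
  have hd : f * (f * v * f⁻¹) * f⁻¹ ∈ V := hVn.conj_mem _ hb f
  have hf3 : f * f * f = 1 := by rw [← pow_three']; exact hf
  have hg : f * (f * (f * v * f⁻¹) * f⁻¹) * f⁻¹ = v := by
    calc f * (f * (f * v * f⁻¹) * f⁻¹) * f⁻¹ = (f * f * f) * v * (f * f * f)⁻¹ := by group
      _ = v := by rw [hf3, one_mul, inv_one, mul_one]
  have e : nu f (nu f (nu f v))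
      = (f * (f * (f * v * f⁻¹) * f⁻¹) * f⁻¹) * (f * (f * v * f⁻¹) * f⁻¹)⁻¹ * (f * v * f⁻¹)
        * (f * (f * v * f⁻¹) * f⁻¹)⁻¹
        * ((f * v * f⁻¹) * v⁻¹ * (f * v * f⁻¹) * (f * (f * v * f⁻¹) * f⁻¹)⁻¹) := by
    unfold nu; group
  rw [e, hg]
  exact comm_identity v _ _ (hV.1 v hv _ hb) (hV.1 v hv _ hd) (hV.1 _ hb _ hd) (hV.2 _ hb)
    (hV.2 _ hd)

/-- an element of order `3` centralizes a large part of a normal elementary abelian `3`-subgroup -/
theorem card_cent_ge [Finite G] {V : Subgroup G} (hVn : V.Normal) (hV : EA 3 V) {f : G}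
    (hf : f ^ 3 = 1) :
    Nat.card V ≤ Nat.card (V ⊓ centralizer ({f} : Set G) : Subgroup G) ^ 3 := by
  have ht : ∀ a ∈ V, nu f a ∈ V := fun a ha => mul_mem (hVn.conj_mem a ha f) (inv_mem ha)
  have hmul : ∀ a ∈ V, ∀ c ∈ V, nu f (a * c) = nu f a * nu f c := by
    intro a ha c hc
    have h1 : (f * c * f⁻¹ * c⁻¹) * a⁻¹ = a⁻¹ * (f * c * f⁻¹ * c⁻¹) :=
      hV.1 _ (ht c hc) _ (inv_mem ha)
    show f * (a * c) * f⁻¹ * (a * c)⁻¹ = (f * a * f⁻¹ * a⁻¹) * (f * c * f⁻¹ * c⁻¹)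
    calc f * (a * c) * f⁻¹ * (a * c)⁻¹ = (f * a * f⁻¹) * ((f * c * f⁻¹ * c⁻¹) * a⁻¹) := by group
      _ = (f * a * f⁻¹) * (a⁻¹ * (f * c * f⁻¹ * c⁻¹)) := by rw [h1]
      _ = _ := by group
  obtain ⟨I₁, K₁, hI₁, hK₁, hc₁⟩ := hom_count (X := V) (nu f) ht hmul
  have hI₁V : I₁ ≤ V := by
    intro y hy
    obtain ⟨a, ha, rfl⟩ := (hI₁ y).mp hy
    exact ht a ha
  obtain ⟨I₂, K₂, hI₂, hK₂, hc₂⟩ := hom_count (X := I₁) (nu f)
    (fun a ha => (hI₁ _).mpr ⟨a, hI₁V ha, rfl⟩)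
    (fun a ha c hc => hmul a (hI₁V ha) c (hI₁V hc))
  have hW : ∀ y ∈ V, nu f y = 1 → y ∈ V ⊓ centralizer ({f} : Set G) := by
    intro y hy h1
    refine Subgroup.mem_inf.mpr ⟨hy, ?_⟩
    rw [mem_centralizer_iff]; intro x hx
    rw [Set.mem_singleton_iff] at hx; subst hx
    have h1' : x * y * x⁻¹ * y⁻¹ = 1 := h1
    calc x * y = (x * y * x⁻¹ * y⁻¹) * y * x := by group
      _ = y * x := by rw [h1', one_mul]
  have hK₁W : K₁ ≤ V ⊓ centralizer ({f} : Set G) := fun a ha =>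
    hW a ((hK₁ a).mp ha).1 ((hK₁ a).mp ha).2
  have hK₂W : K₂ ≤ V ⊓ centralizer ({f} : Set G) := fun a ha =>
    hW a (hI₁V ((hK₂ a).mp ha).1) ((hK₂ a).mp ha).2
  have hI₂W : I₂ ≤ V ⊓ centralizer ({f} : Set G) := by
    intro y hy
    obtain ⟨y₁, hy₁, rfl⟩ := (hI₂ y).mp hy
    obtain ⟨v, hv, rfl⟩ := (hI₁ y₁).mp hy₁
    exact hW _ (ht _ (ht _ hv)) (nu_cube hVn hV hf hv)
  calc Nat.card V = Nat.card I₁ * Nat.card K₁ := hc₁
    _ = Nat.card I₂ * Nat.card K₂ * Nat.card K₁ := by rw [hc₂]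
    _ ≤ Nat.card (V ⊓ centralizer ({f} : Set G) : Subgroup G)
          * Nat.card (V ⊓ centralizer ({f} : Set G) : Subgroup G)
          * Nat.card (V ⊓ centralizer ({f} : Set G) : Subgroup G) :=
        Nat.mul_le_mul (Nat.mul_le_mul (Subgroup.card_le_of_le hI₂W)
          (Subgroup.card_le_of_le hK₂W)) (Subgroup.card_le_of_le hK₁W)
    _ = Nat.card (V ⊓ centralizer ({f} : Set G) : Subgroup G) ^ 3 := by ring

/-- a finite `3`-group of rank at least four is `2`-connected -/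
theorem three_connected [Finite G] (hG : IsPGroup 3 G) {A : Subgroup G} (hA : EA 3 A)
    (hA4 : 3 ^ 4 ≤ Nat.card A) :
    ∀ E E' : Subgroup G, EA 3 E → 3 ^ 2 ≤ Nat.card E → EA 3 E' → 3 ^ 2 ≤ Nat.card E' →
    Relation.ReflTransGen (fun A B : Subgroup G => EA 3 A ∧ 3 ^ 2 ≤ Nat.card A ∧ EA 3 B ∧
      3 ^ 2 ≤ Nat.card B ∧ ∀ a ∈ A, ∀ b ∈ B, a * b = b * a) E E' := by
  have hp3 : Fact (Nat.Prime 3) := ⟨Nat.prime_three⟩
  obtain ⟨V, hVn, hV, hV4⟩ := exists_normal_EA (p := 3) (by norm_num) hG hA hA4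
  obtain ⟨z, hzV, hz1, hzc⟩ :=
    Cfsg.Agent.Lib.Helper19.exists_ne_one_mem_centralizer_of_le_normalizer (p := 3)
      (P := ⊤) (K := V) (hG.to_subgroup ⊤) (by rw [normalizer_eq_top_iff.mpr hVn])
      (by rw [hV4]; norm_num)
  have hzc' : ∀ g : G, z * g = g * z := fun g =>
    (mem_centralizer_iff.mp hzc g (mem_top g)).symm
  have hz3 : z ^ 3 = 1 := hV.2 z hzV
  obtain ⟨R, hR⟩ : ∃ R : Subgroup G → Subgroup G → Prop, R = (fun A B : Subgroup G =>
      EA 3 A ∧ 3 ^ 2 ≤ Nat.card A ∧ EA 3 B ∧ 3 ^ 2 ≤ Nat.card B ∧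
      ∀ a ∈ A, ∀ b ∈ B, a * b = b * a) := ⟨_, rfl⟩
  rw [← hR]
  have hRiff : ∀ A B : Subgroup G, R A B ↔ (EA 3 A ∧ 3 ^ 2 ≤ Nat.card A ∧ EA 3 B ∧
      3 ^ 2 ≤ Nat.card B ∧ ∀ a ∈ A, ∀ b ∈ B, a * b = b * a) := by
    intro A B; rw [hR]
  have hsymm : ∀ A B : Subgroup G, R A B → R B A := by
    intro A B h
    obtain ⟨h1, h2, h3, h4, h5⟩ := (hRiff A B).mp h
    exact (hRiff B A).mpr ⟨h3, h4, h1, h2, fun a ha b hb => (h5 b hb a ha).symm⟩
  have key : ∀ E : Subgroup G, EA 3 E → 3 ^ 2 ≤ Nat.card E → Relation.ReflTransGen R E V := by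
    intro E hE hE2
    have hcz : Nat.card (zpowers z) ≤ 3 := by
      rw [Nat.card_zpowers]
      exact Nat.le_of_dvd (by norm_num) (orderOf_dvd_of_pow_eq_one hz3)
    have hnle : ¬ E ≤ zpowers z := by
      intro hle
      have h1 := Subgroup.card_le_of_le hle
      norm_num at hE2
      omega
    obtain ⟨f, hfE, hfz⟩ := SetLike.not_le_iff_exists.mp hnle
    have hf3 : f ^ 3 = 1 := hE.2 f hfE
    obtain ⟨F, hF⟩ : ∃ F : Subgroup G, F = zpowers z ⊔ zpowers f := ⟨_, rfl⟩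
    have hFEA : EA 3 F := by
      rw [hF]
      refine EA.sup (EA.zpowers hz3) (EA.zpowers hf3) ?_
      intro a ha b hb
      exact comm_zpowers (hzc' b) a ha
    have hFcard : 3 ^ 2 ≤ Nat.card F := by
      have h1 : zpowers z < F := by
        rw [hF]
        refine lt_of_le_of_ne le_sup_left ?_
        intro heq
        apply hfz
        rw [heq]; exact mem_sup_right (mem_zpowers f)
      have h2 : (⊥ : Subgroup G) < zpowers z := by
        rw [bot_lt_iff_ne_bot]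
        intro h0
        apply hz1
        have h3 := mem_zpowers z
        rw [h0, mem_bot] at h3
        exact h3
      have h3 := p_mul_card_le_of_lt hG h1
      have h4 := p_mul_card_le_of_lt hG h2
      rw [Subgroup.card_bot] at h4
      norm_num
      omega
    obtain ⟨W, hW⟩ : ∃ W : Subgroup G, W = V ⊓ centralizer ({f} : Set G) := ⟨_, rfl⟩
    have hWV : W ≤ V := by rw [hW]; exact inf_le_left
    have hWEA : EA 3 W := hV.mono hWV
    have hWcard : 3 ^ 2 ≤ Nat.card W := by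
      have h1 := card_cent_ge hVn hV hf3
      rw [← hW, hV4] at h1
      obtain ⟨n, hn⟩ := IsPGroup.iff_card.mp (hG.to_subgroup W)
      rw [hn] at h1 ⊢
      by_contra hcon
      have h2 : n ≤ 1 := by
        by_contra h3
        push Not at h3
        exact hcon (Nat.pow_le_pow_right (by norm_num) h3)
      have h3 : 3 ^ n ≤ 3 ^ 1 := Nat.pow_le_pow_right (by norm_num) h2
      have h4 : (3 ^ n) ^ 3 ≤ (3 ^ 1) ^ 3 := Nat.pow_le_pow_left h3 3
      norm_num at h4 h1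
      omega
    have e1 : R E F := by
      refine (hRiff E F).mpr ⟨hE, hE2, hFEA, hFcard, ?_⟩
      intro a ha b hb
      rw [hF] at hb
      exact (comm_sup (comm_zpowers (hzc' a)) (comm_zpowers (hE.1 f hfE a ha)) b hb).symm
    have e2 : R F W := by
      refine (hRiff F W).mpr ⟨hFEA, hFcard, hWEA, hWcard, ?_⟩
      intro a ha b hb
      rw [hF] at ha
      rw [hW] at hb
      have hbf : f * b = b * f := mem_centralizer_iff.mp (Subgroup.mem_inf.mp hb).2 f rfl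
      exact comm_sup (comm_zpowers (hzc' b)) (comm_zpowers hbf) a ha
    have e3 : R W V := by
      refine (hRiff W V).mpr ⟨hWEA, hWcard, hV, by rw [hV4]; norm_num, ?_⟩
      intro a ha b hb
      exact hV.1 a (hWV ha) b hb
    exact Relation.ReflTransGen.trans (Relation.ReflTransGen.single e1)
      (Relation.ReflTransGen.trans (Relation.ReflTransGen.single e2)
        (Relation.ReflTransGen.single e3))
  intro E E' hE hE2 hE' hE'2
  have hrev : ∀ X Y : Subgroup G, Relation.ReflTransGen R X Y → Relation.ReflTransGen R Y X := by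
    intro X Y h
    induction h with
    | refl => exact Relation.ReflTransGen.refl
    | tail _ hbc ih => exact (Relation.ReflTransGen.single (hsymm _ _ hbc)).trans ih
  exact (key E hE hE2).trans (hrev _ _ (key E' hE' hE'2))

end Cfsg.Agent.Lib.Helper19.NormalElAb
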