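import Mathlib
import Cfsg.Prelude.Def_PLocal
import Cfsg.Prelude.Def_Transfer
import Cfsg.Agent.Lib.Helper15.QdFree
import Cfsg.Agent.Lib.Helper27.OrderCube
import Cfsg.Agent.Lib.Helper19.RelNorm
import Cfsg.Agent.Lib.Helper19.PGroupFixed

set_option autoImplicit false

namespace Cfsg.Agent.Lib.Helper19.QdSylow

open Cfsg.Agent.Lib.Helper15 (heis heis_le_qd heis_isPGroup heis_sub_one_cube)

section Coord

variable {R : Type*} [CommRing R]

/-- the upper unitriangular matrix with entries `a`, `b`, `c` -/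
def hmS (a b c : R) : Matrix.SpecialLinearGroup (Fin 3) R :=
  ⟨!![1, a, c; 0, 1, b; 0, 0, 1], by simp [Matrix.det_fin_three]⟩

theorem hmS_mem (a b c : R) : hmS a b c ∈ heis R := by
  refine ⟨?_, ?_, ?_, ?_, ?_, ?_⟩ <;> simp [hmS]

theorem hmS_mul (a b c a' b' c' : R) :
    hmS a b c * hmS a' b' c' = hmS (a + a') (b + b') (c + c' + a * b') := by
  apply Subtype.ext
  rw [Matrix.SpecialLinearGroup.coe_mul]
  ext i j
  fin_cases i <;> fin_cases j <;>
    simp [hmS, Matrix.mul_apply, Fin.sum_univ_three] <;> ring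

theorem eq_hmS {M : Matrix.SpecialLinearGroup (Fin 3) R} (hM : M ∈ heis R) :
    M = hmS ((M : Matrix (Fin 3) (Fin 3) R) 0 1) ((M : Matrix (Fin 3) (Fin 3) R) 1 2)
      ((M : Matrix (Fin 3) (Fin 3) R) 0 2) := by
  obtain ⟨a1, a2, a3, a4, a5, a6⟩ := hM
  apply Subtype.ext
  ext i j
  fin_cases i <;> fin_cases j <;> simp [hmS, a1, a2, a3, a4, a5, a6]

/-- coordinates of an element of the unitriangular group -/
def e01 (X : ↥(heis R)) : R := ((X : Matrix.SpecialLinearGroup (Fin 3) R) : Matrix (Fin 3) (Fin 3) R) 0 1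
def e12 (X : ↥(heis R)) : R := ((X : Matrix.SpecialLinearGroup (Fin 3) R) : Matrix (Fin 3) (Fin 3) R) 1 2
def e02 (X : ↥(heis R)) : R := ((X : Matrix.SpecialLinearGroup (Fin 3) R) : Matrix (Fin 3) (Fin 3) R) 0 2

/-- the element with given coordinates -/
def hm (a b c : R) : ↥(heis R) := ⟨hmS a b c, hmS_mem a b c⟩

@[simp] theorem e01_hm (a b c : R) : e01 (hm a b c) = a := by simp [e01, hm, hmS]
@[simp] theorem e12_hm (a b c : R) : e12 (hm a b c) = b := by simp [e12, hm, hmS]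
@[simp] theorem e02_hm (a b c : R) : e02 (hm a b c) = c := by simp [e02, hm, hmS]

theorem hm_mul (a b c a' b' c' : R) :
    hm a b c * hm a' b' c' = hm (a + a') (b + b') (c + c' + a * b') :=
  Subtype.ext (hmS_mul a b c a' b' c')

theorem eq_hm (X : ↥(heis R)) : X = hm (e01 X) (e12 X) (e02 X) :=
  Subtype.ext (eq_hmS X.2)

theorem exists_hm (X : ↥(heis R)) : ∃ a b c, X = hm a b c := ⟨_, _, _, eq_hm X⟩

theorem hm_zero : hm (0 : R) 0 0 = 1 := by
  apply Subtype.ext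
  apply Subtype.ext
  ext i j
  fin_cases i <;> fin_cases j <;> simp [hm, hmS]

/-- the coordinate bijection -/
def coordEquiv : ↥(heis R) ≃ R × R × R where
  toFun X := (e01 X, e12 X, e02 X)
  invFun t := hm t.1 t.2.1 t.2.2
  left_inv X := (eq_hm X).symm
  right_inv t := by simp

/-- the inverse-transpose automorphism -/
def tau : ↥(heis R) ≃* ↥(heis R) where
  toFun X := hm (-(e12 X)) (-(e01 X)) (e01 X * e12 X - e02 X)
  invFun X := hm (-(e12 X)) (-(e01 X)) (e01 X * e12 X - e02 X)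
  left_inv X := by
    obtain ⟨a, b, c, rfl⟩ := exists_hm X
    simp only [e01_hm, e12_hm, e02_hm]
    congr 1 <;> ring
  right_inv X := by
    obtain ⟨a, b, c, rfl⟩ := exists_hm X
    simp only [e01_hm, e12_hm, e02_hm]
    congr 1 <;> ring
  map_mul' X Y := by
    obtain ⟨a, b, c, rfl⟩ := exists_hm X
    obtain ⟨a', b', c', rfl⟩ := exists_hm Y
    rw [hm_mul]
    simp only [e01_hm, e12_hm, e02_hm]
    rw [hm_mul]
    congr 1 <;> ring

theorem e01_tau (X : ↥(heis R)) : e01 (tau X) = -(e12 X) := by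
  show e01 (hm (-(e12 X)) (-(e01 X)) (e01 X * e12 X - e02 X)) = _
  simp

end Coord

theorem card_heis (p : ℕ) [Fact p.Prime] : Nat.card ↥(heis (ZMod p)) = p ^ 3 := by
  rw [Nat.card_congr (coordEquiv (R := ZMod p)), Nat.card_prod, Nat.card_prod, Nat.card_zmod]
  ring

theorem heis_pow_prime (p : ℕ) [Fact p.Prime] (hp2 : p ≠ 2) (X : ↥(heis (ZMod p))) : X ^ p = 1 := by
  have hp : p.Prime := Fact.out
  obtain ⟨M, hM⟩ := X
  apply Subtype.ext
  apply Subtype.ext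
  show ((M ^ p : Matrix.SpecialLinearGroup (Fin 3) (ZMod p)) : Matrix (Fin 3) (Fin 3) (ZMod p)) = 1
  rw [Matrix.SpecialLinearGroup.coe_pow]
  have h1 := Cfsg.Agent.Lib.Helper15.sub_one_pow_char_pow p (M : Matrix (Fin 3) (Fin 3) (ZMod p)) 1
  rw [pow_one] at h1
  have h2 : 3 ≤ p := by
    have := hp.two_le
    omega
  have h3 : ∀ n : ℕ, 3 ≤ n → ((M : Matrix (Fin 3) (Fin 3) (ZMod p)) - 1) ^ n = 0 := by
    intro n hn
    obtain ⟨c, rfl⟩ := Nat.exists_eq_add_of_le hn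
    rw [pow_add, heis_sub_one_cube M hM, zero_mul]
  rw [h3 p h2] at h1
  exact (sub_eq_zero.mp h1.symm)

section Aff

variable (p : ℕ)

theorem row_mul (M N : Matrix.SpecialLinearGroup (Fin 3) (ZMod p))
    (h0 : (M : Matrix (Fin 3) (Fin 3) (ZMod p)) 2 0 = 0)
    (h1 : (M : Matrix (Fin 3) (Fin 3) (ZMod p)) 2 1 = 0)
    (h2 : (M : Matrix (Fin 3) (Fin 3) (ZMod p)) 2 2 = 1) (j : Fin 3) :
    ((M * N : Matrix.SpecialLinearGroup (Fin 3) (ZMod p)) : Matrix (Fin 3) (Fin 3) (ZMod p)) 2 j =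
      (N : Matrix (Fin 3) (Fin 3) (ZMod p)) 2 j := by
  rw [Matrix.SpecialLinearGroup.coe_mul, Matrix.mul_apply, Fin.sum_univ_three, h0, h1, h2]
  ring

/-- the affine group as a subgroup -/
def aff : Subgroup (Matrix.SpecialLinearGroup (Fin 3) (ZMod p)) where
  carrier := {M | (M : Matrix (Fin 3) (Fin 3) (ZMod p)) 2 0 = 0 ∧
    (M : Matrix (Fin 3) (Fin 3) (ZMod p)) 2 1 = 0 ∧ (M : Matrix (Fin 3) (Fin 3) (ZMod p)) 2 2 = 1}
  mul_mem' := by
    rintro M N ⟨h0, h1, h2⟩ ⟨k0, k1, k2⟩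
    exact ⟨by rw [row_mul p M N h0 h1 h2]; exact k0, by rw [row_mul p M N h0 h1 h2]; exact k1,
      by rw [row_mul p M N h0 h1 h2]; exact k2⟩
  one_mem' := by
    refine ⟨?_, ?_, ?_⟩ <;> simp
  inv_mem' := by
    rintro M ⟨h0, h1, h2⟩
    have key : ∀ j : Fin 3, ((M⁻¹ : Matrix.SpecialLinearGroup (Fin 3) (ZMod p)) :
        Matrix (Fin 3) (Fin 3) (ZMod p)) 2 j = (1 : Matrix (Fin 3) (Fin 3) (ZMod p)) 2 j := by
      intro j
      rw [← row_mul p M M⁻¹ h0 h1 h2 j, mul_inv_cancel]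
      rfl
    refine ⟨?_, ?_, ?_⟩
    · rw [key 0]; simp
    · rw [key 1]; simp
    · rw [key 2]; simp

theorem qd_eq : Cfsg.qd p = aff p := Subgroup.closure_eq (aff p)

theorem mem_qd_iff {M : Matrix.SpecialLinearGroup (Fin 3) (ZMod p)} :
    M ∈ Cfsg.qd p ↔ (M : Matrix (Fin 3) (Fin 3) (ZMod p)) 2 0 = 0 ∧
      (M : Matrix (Fin 3) (Fin 3) (ZMod p)) 2 1 = 0 ∧ (M : Matrix (Fin 3) (Fin 3) (ZMod p)) 2 2 = 1 := by
  rw [qd_eq]
  rfl

end Aff

section Card

variable (p : ℕ) [Fact p.Prime]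

theorem not_dvd_pow_sub_one {k : ℕ} (hk : k ≠ 0) : ¬ p ∣ p ^ k - 1 := by
  have hp : p.Prime := Fact.out
  intro h
  have h1 : p ∣ p ^ k := dvd_pow_self p hk
  have h2 : 1 ≤ p ^ k := Nat.one_le_pow _ _ hp.pos
  have h3 : p ∣ p ^ k - (p ^ k - 1) := Nat.dvd_sub h1 h
  have h4 : p ^ k - (p ^ k - 1) = 1 := by omega
  rw [h4] at h3
  exact hp.one_lt.ne' (Nat.dvd_one.mp h3)

theorem card_GL3 :
    Nat.card (GL (Fin 3) (ZMod p)) = p ^ 3 * ((p ^ 3 - 1) * (p ^ 2 - 1) * (p - 1)) := by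
  rw [Matrix.card_GL_field, Fin.prod_univ_three, ZMod.card]
  simp only [Fin.val_zero, Fin.val_one, Fin.val_two, pow_zero, pow_one]
  have e1 : p ^ 3 - p = p * (p ^ 2 - 1) := by
    rw [Nat.mul_sub, mul_one, ← pow_succ']
  have e2 : p ^ 3 - p ^ 2 = p ^ 2 * (p - 1) := by
    rw [Nat.mul_sub, mul_one, ← pow_succ]
  rw [e1, e2]
  ring

theorem factorization_card_qd : (Nat.card ↥(Cfsg.qd p)).factorization p = 3 := by
  have hp : p.Prime := Fact.out
  have hne : Nat.card ↥(Cfsg.qd p) ≠ 0 := Nat.card_pos.ne'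
  apply le_antisymm
  · by_contra hlt
    push Not at hlt
    have h4 : p ^ 4 ∣ Nat.card ↥(Cfsg.qd p) := (hp.pow_dvd_iff_le_factorization hne).mpr hlt
    have h5 : Nat.card ↥(Cfsg.qd p) ∣ Nat.card (GL (Fin 3) (ZMod p)) :=
      (Subgroup.card_subgroup_dvd_card _).trans
        (Subgroup.card_dvd_of_injective Matrix.SpecialLinearGroup.toGL
          Matrix.SpecialLinearGroup.toGL_injective)
    rw [card_GL3] at h5
    have h6 : p ^ 3 * p ∣ p ^ 3 * ((p ^ 3 - 1) * (p ^ 2 - 1) * (p - 1)) := by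
      rw [← pow_succ]; exact h4.trans h5
    have h7 : p ∣ (p ^ 3 - 1) * (p ^ 2 - 1) * (p - 1) :=
      Nat.dvd_of_mul_dvd_mul_left (pow_pos hp.pos 3) h6
    rcases (hp.dvd_mul).mp h7 with h8 | h8
    · rcases (hp.dvd_mul).mp h8 with h9 | h9
      · exact not_dvd_pow_sub_one p (by norm_num) h9
      · exact not_dvd_pow_sub_one p (by norm_num) h9
    · have h10 := not_dvd_pow_sub_one p (k := 1) (by norm_num)
      rw [pow_one] at h10
      exact h10 h8
  · have h3 : p ^ 3 ∣ Nat.card ↥(Cfsg.qd p) := by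
      rw [← card_heis p]
      exact Subgroup.card_dvd_of_le (heis_le_qd p)
    exact (hp.pow_dvd_iff_le_factorization hne).mp h3

/-- the unitriangular subgroup inside `Qd(p)` -/
def heisQ : Subgroup ↥(Cfsg.qd p) := (heis (ZMod p)).subgroupOf (Cfsg.qd p)

/-- identification of the two versions of the unitriangular group -/
noncomputable def eQ : ↥(heisQ p) ≃* ↥(heis (ZMod p)) :=
  Subgroup.subgroupOfEquivOfLe (heis_le_qd p)

omit [Fact p.Prime] in
theorem eQ_coe (x : ↥(heisQ p)) :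
    ((eQ p x : ↥(heis (ZMod p))) : Matrix.SpecialLinearGroup (Fin 3) (ZMod p)) =
      ((x : ↥(Cfsg.qd p)) : Matrix.SpecialLinearGroup (Fin 3) (ZMod p)) :=
  Subgroup.subgroupOfEquivOfLe_apply_coe _ x

theorem card_heisQ : Nat.card ↥(heisQ p) = p ^ (Nat.card ↥(Cfsg.qd p)).factorization p := by
  rw [factorization_card_qd, ← card_heis p]
  exact Nat.card_congr (eQ p).toEquiv

/-- the standard Sylow subgroup -/
noncomputable def sylQ : Sylow p ↥(Cfsg.qd p) := Sylow.ofCard (heisQ p) (card_heisQ p)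

theorem coe_sylQ : ((sylQ p : Sylow p ↥(Cfsg.qd p)) : Subgroup ↥(Cfsg.qd p)) = heisQ p :=
  Sylow.coe_ofCard _ _

/-- every Sylow subgroup is a copy of the unitriangular group -/
noncomputable def sylowEquiv (P : Sylow p ↥(Cfsg.qd p)) : ↥P ≃* ↥(heis (ZMod p)) :=
  ((Sylow.equiv P (sylQ p)).trans (MulEquiv.subgroupCongr (coe_sylQ p))).trans (eQ p)

theorem sylow_extraspecial (hp2 : p ≠ 2) (P : Sylow p ↥(Cfsg.qd p)) :
    Cfsg.IsExtraspecial p ↥P ∧ Nat.card P = p ^ 3 ∧ Monoid.exponent ↥P = p := by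
  have hp : p.Prime := Fact.out
  obtain ⟨e, -⟩ : ∃ e : ↥P ≃* ↥(heis (ZMod p)), e = sylowEquiv p P := ⟨_, rfl⟩
  have hcard : Nat.card ↥P = p ^ 3 := by rw [Nat.card_congr e.toEquiv, card_heis]
  have hnc : ¬ ∀ a b : ↥P, a * b = b * a := by
    intro h
    have h1 := h (e.symm (hm 1 0 0)) (e.symm (hm 0 1 0))
    rw [← map_mul, ← map_mul, hm_mul, hm_mul] at h1
    have h2 := e.symm.injective h1
    have h3 := congrArg e02 h2
    simp at h3
  have hpow : ∀ x : ↥P, x ^ p = 1 := by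
    intro x
    apply e.injective
    rw [map_pow, map_one]
    exact heis_pow_prime p hp2 (e x)
  refine ⟨Cfsg.Agent.Lib.Helper27.cube_extraspecial p hcard hnc, hcard, ?_⟩
  have hdvd := Monoid.exponent_dvd_of_forall_pow_eq_one hpow
  rcases (Nat.dvd_prime hp).mp hdvd with h | h
  · exfalso
    rw [Monoid.exp_eq_one_iff] at h
    have h1 : Nat.card ↥P = 1 := Nat.card_of_subsingleton 1
    rw [hcard] at h1
    have h2 : 1 < p ^ 3 := Nat.one_lt_pow (by norm_num) hp.one_lt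
    omega
  · exact h

end Card

end Cfsg.Agent.Lib.Helper19.QdSylow
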